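import Mathlib

/-!
# S4311, BOX D3: isometries of the determinant form on `M₂(F)` (helper982)

* `typ_of_iso` : every linear isometry is `X ↦ A X B` or `X ↦ A adj(X) B`, `det A det B = 1`;
* `det_typ_false`, `det_typ_true` : their determinants are `1`, `-1`.
-/

set_option autoImplicit false

namespace Cfsg.Agent.H982.DfMat

open Matrix

variable {F : Type*} [Field F]

/-- `2 × 2` matrices -/
abbrev M2 (F : Type*) [Field F] := Matrix (Fin 2) (Fin 2) F

/-- the polar form of the determinant -/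
def pd (X Y : M2 F) : F := X 0 0 * Y 1 1 + X 1 1 * Y 0 0 - X 0 1 * Y 1 0 - X 1 0 * Y 0 1

theorem det_add' (X Y : M2 F) : (X + Y).det = X.det + Y.det + pd X Y := by
  rw [det_fin_two, det_fin_two, det_fin_two, pd]
  simp only [Matrix.add_apply]
  ring

theorem pd_of_det {g : M2 F →ₗ[F] M2 F} (h : ∀ X, (g X).det = X.det) (X Y : M2 F) : pd (g X) (g Y) = pd X Y := by
  have h1 := h (X + Y)
  rw [map_add, det_add', det_add', h, h] at h1
  linear_combination h1

/-- the idempotent -/
def e0 (F : Type*) [Field F] : M2 F := !![1, 0; 0, 0]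

theorem exists_col {P : M2 F} (ht : P 0 0 + P 1 1 = 1) (hd : P.det = 0) : ∃ C : M2 F, C.det = 1 ∧ P * C = C * e0 F := by
  rw [det_fin_two] at hd
  by_cases ha : P 0 0 = 0
  · refine ⟨!![P 0 1, -1; 1, P 1 0], ?_, ?_⟩
    · rw [det_fin_two_of]
      rw [ha] at hd
      linear_combination -hd
    · have h1 : P 1 1 = 1 := by rw [ha, zero_add] at ht; exact ht
      have h2 : P 0 1 * P 1 0 = 0 := by rw [ha] at hd; linear_combination -hd
      ext i j
      fin_cases i <;> fin_cases j
      · simp [e0, Matrix.mul_apply, Fin.sum_univ_two, ha]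
      · simp [e0, Matrix.mul_apply, Fin.sum_univ_two, ha]
        exact mul_eq_zero.1 h2
      · simp [e0, Matrix.mul_apply, Fin.sum_univ_two, h1]
        exact (mul_eq_zero.1 h2).symm
      · simp [e0, Matrix.mul_apply, Fin.sum_univ_two, h1]
  · refine ⟨!![P 0 0, -P 0 1 / P 0 0; P 1 0, 1], ?_, ?_⟩
    · rw [det_fin_two_of]
      field_simp
      linear_combination P 0 0 * ht - hd
    · ext i j
      fin_cases i <;> fin_cases j
      · simp [e0, Matrix.mul_apply, Fin.sum_univ_two]
        linear_combination P 0 0 * ht - hd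
      · simp [e0, Matrix.mul_apply, Fin.sum_univ_two]
        field_simp
        ring
      · simp [e0, Matrix.mul_apply, Fin.sum_univ_two]
        linear_combination P 1 0 * ht
      · simp [e0, Matrix.mul_apply, Fin.sum_univ_two]
        field_simp
        linear_combination hd

/-- an isometry fixing `1` and `e0` -/
theorem iso_std {g : M2 F →ₗ[F] M2 F} (h : ∀ X, (g X).det = X.det) (h1 : g 1 = 1) (he : g (e0 F) = e0 F) :
    ∃ c : F, c ≠ 0 ∧ ((∀ X, g X = !![X 0 0, c * X 0 1; c⁻¹ * X 1 0, X 1 1]) ∨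
      (∀ X, g X = !![X 0 0, c * X 1 0; c⁻¹ * X 0 1, X 1 1])) := by
  have hp := pd_of_det h
  have h11 : ∀ X, (g X) 1 1 = X 1 1 := by
    intro X
    have := hp X (e0 F)
    rw [he] at this
    simpa [pd, e0] using this
  have h00 : ∀ X, (g X) 0 0 = X 0 0 := by
    intro X
    have := hp X 1
    rw [h1] at this
    simp [pd] at this
    rw [h11] at this
    linear_combination this
  obtain ⟨P, hP⟩ : ∃ P, P = g !![0, 1; 0, 0] := ⟨_, rfl⟩
  obtain ⟨R, hR⟩ : ∃ R, R = g !![0, 0; 1, 0] := ⟨_, rfl⟩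
  have hgX : ∀ X, g X = X 0 0 • e0 F + X 0 1 • P + X 1 0 • R + X 1 1 • (1 - e0 F) := by
    intro X
    have hX : X = X 0 0 • e0 F + X 0 1 • !![0, 1; 0, 0] + X 1 0 • !![0, 0; 1, 0] + X 1 1 • (1 - e0 F) := by
      ext i j
      fin_cases i <;> fin_cases j <;> simp [e0]
    conv_lhs => rw [hX]
    rw [map_add, map_add, map_add, map_smul, map_smul, map_smul, map_smul, map_sub, h1, he, ← hP, ← hR]
  have hP00 : P 0 0 = 0 := by rw [hP, h00]; simp
  have hP11 : P 1 1 = 0 := by rw [hP, h11]; simp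
  have hR00 : R 0 0 = 0 := by rw [hR, h00]; simp
  have hR11 : R 1 1 = 0 := by rw [hR, h11]; simp
  have hPd : P 0 1 * P 1 0 = 0 := by
    have := h !![0, 1; 0, 0]
    rw [← hP, det_fin_two, hP00, hP11, det_fin_two_of] at this
    linear_combination -this
  have hRd : R 0 1 * R 1 0 = 0 := by
    have := h !![0, 0; 1, 0]
    rw [← hR, det_fin_two, hR00, hR11, det_fin_two_of] at this
    linear_combination -this
  have hPR : P 0 1 * R 1 0 + P 1 0 * R 0 1 = 1 := by
    have := hp !![0, 1; 0, 0] !![0, 0; 1, 0]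
    rw [← hP, ← hR, pd, pd, hP00, hP11] at this
    simp at this
    linear_combination -this
  rcases mul_eq_zero.1 hPd with h2 | h2
  · rw [h2, zero_mul, zero_add] at hPR
    have h3 : R 0 1 ≠ 0 := right_ne_zero_of_mul_eq_one hPR
    have h4 : R 1 0 = 0 := (mul_eq_zero.1 hRd).resolve_left h3
    refine ⟨R 0 1, h3, Or.inr fun X => ?_⟩
    have h5 : P 1 0 = (R 0 1)⁻¹ := eq_inv_of_mul_eq_one_left hPR
    rw [hgX]
    ext i j
    fin_cases i <;> fin_cases j
    · simp [e0, hP00, hR00]
    · simp [e0, h2]; ring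
    · simp [e0, h4, h5]; ring
    · simp [e0, hP11, hR11]
  · rw [h2, zero_mul, add_zero] at hPR
    have h3 : P 0 1 ≠ 0 := left_ne_zero_of_mul_eq_one hPR
    have h4 : R 1 0 ≠ 0 := right_ne_zero_of_mul_eq_one hPR
    have h6 : R 0 1 = 0 := (mul_eq_zero.1 hRd).resolve_right h4
    refine ⟨P 0 1, h3, Or.inl fun X => ?_⟩
    have h5 : R 1 0 = (P 0 1)⁻¹ := eq_inv_of_mul_eq_one_right hPR
    rw [hgX]
    ext i j
    fin_cases i <;> fin_cases j
    · simp [e0, hP00, hR00]
    · simp [e0, h6]; ring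
    · simp [e0, h2, h5]; ring
    · simp [e0, hP11, hR11]

/-- the two types of isometries -/
def Typ (b : Bool) (A B X : M2 F) : M2 F := if b then A * X.adjugate * B else A * X * B

theorem adj2 (X : M2 F) : X.adjugate = !![X 1 1, -X 0 1; -X 1 0, X 0 0] := adjugate_fin_two X

/-- **Isometries of `(M₂(F), det)`.** -/
theorem typ_of_iso {g : M2 F →ₗ[F] M2 F} (h : ∀ X, (g X).det = X.det) :
    ∃ (b : Bool) (A B : M2 F), A.det * B.det = 1 ∧ ∀ X, g X = Typ b A B X := by
  obtain ⟨S, hS⟩ : ∃ S, S = g 1 := ⟨_, rfl⟩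
  have hSd : S.det = 1 := by rw [hS, h, det_one]
  have hS1 : S.adjugate * S = 1 := by rw [adjugate_mul, hSd, one_smul]
  have hS2 : S * S.adjugate = 1 := by rw [mul_adjugate, hSd, one_smul]
  have hSa : S.adjugate.det = 1 := by
    have := congrArg Matrix.det hS1
    rwa [det_mul, hSd, mul_one, det_one] at this
  let g₁ : M2 F →ₗ[F] M2 F :=
    { toFun := fun X => S.adjugate * g X
      map_add' := fun X Y => by rw [map_add, mul_add]
      map_smul' := fun c X => by rw [map_smul, RingHom.id_apply, Matrix.mul_smul] }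
  have hg₁ : ∀ X, g₁ X = S.adjugate * g X := fun _ => rfl
  have h₁ : ∀ X, (g₁ X).det = X.det := fun X => by rw [hg₁, det_mul, hSa, one_mul, h]
  have h₁1 : g₁ 1 = 1 := by rw [hg₁, ← hS, hS1]
  obtain ⟨C, hC, hPC⟩ := exists_col (P := g₁ (e0 F)) (by
    have := pd_of_det h₁ (e0 F) 1
    rw [h₁1] at this
    simp [pd, e0] at this
    exact this) (by rw [h₁]; simp [e0])
  have hC1 : C.adjugate * C = 1 := by rw [adjugate_mul, hC, one_smul]
  have hC2 : C * C.adjugate = 1 := by rw [mul_adjugate, hC, one_smul]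
  have hCa : C.adjugate.det = 1 := by
    have := congrArg Matrix.det hC1
    rwa [det_mul, hC, mul_one, det_one] at this
  let g₂ : M2 F →ₗ[F] M2 F :=
    { toFun := fun X => C.adjugate * g₁ X * C
      map_add' := fun X Y => by rw [map_add, mul_add, add_mul]
      map_smul' := fun c X => by rw [map_smul, RingHom.id_apply, Matrix.mul_smul, Matrix.smul_mul] }
  have hg₂ : ∀ X, g₂ X = C.adjugate * g₁ X * C := fun _ => rfl
  have h₂ : ∀ X, (g₂ X).det = X.det := fun X => by rw [hg₂, det_mul, det_mul, hCa, hC, one_mul, mul_one, h₁]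
  have h₂1 : g₂ 1 = 1 := by rw [hg₂, h₁1, mul_one, hC1]
  have h₂e : g₂ (e0 F) = e0 F := by rw [hg₂, mul_assoc, hPC, ← mul_assoc, hC1, one_mul]
  have hback : ∀ X, g X = S * (C * g₂ X * C.adjugate) := by
    intro X
    rw [hg₂]
    calc g X = (S * S.adjugate) * g X := by rw [hS2, one_mul]
      _ = S * g₁ X := by rw [hg₁, mul_assoc]
      _ = S * ((C * C.adjugate) * g₁ X * (C * C.adjugate)) := by rw [hC2, one_mul, mul_one]
      _ = _ := by simp only [mul_assoc]
  obtain ⟨c, hc, h3 | h3⟩ := iso_std h₂ h₂1 h₂e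
  · refine ⟨false, S * C * !![c, 0; 0, 1], !![c⁻¹, 0; 0, 1] * C.adjugate, ?_, fun X => ?_⟩
    · rw [det_mul, det_mul, det_mul, hSd, hC, hCa, det_fin_two_of, det_fin_two_of]
      field_simp
      ring
    · have h4 : g₂ X = !![c, 0; 0, 1] * X * !![c⁻¹, 0; 0, 1] := by
        rw [h3]
        conv_rhs => rw [Matrix.eta_fin_two X]
        ext i j
        fin_cases i <;> fin_cases j <;>
          simp [Matrix.mul_apply, Fin.sum_univ_two] <;> field_simp
      rw [hback, h4]
      simp only [Typ, Bool.false_eq_true, if_false, mul_assoc]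
  · refine ⟨true, S * C * !![0, c; -1, 0], !![0, -1; c⁻¹, 0] * C.adjugate, ?_, fun X => ?_⟩
    · rw [det_mul, det_mul, det_mul, hSd, hC, hCa, det_fin_two_of, det_fin_two_of]
      field_simp
      ring
    · have h4 : g₂ X = !![0, c; -1, 0] * X.adjugate * !![0, -1; c⁻¹, 0] := by
        rw [h3, adj2]
        ext i j
        fin_cases i <;> fin_cases j <;>
          simp [Matrix.mul_apply, Fin.sum_univ_two] <;> field_simp
      rw [hback, h4]
      simp only [Typ, if_true, mul_assoc]

/-! ### Determinants -/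

/-- `X ↦ A X` -/
def lmL (A : M2 F) : M2 F →ₗ[F] M2 F where
  toFun X := A * X
  map_add' X Y := mul_add _ _ _
  map_smul' c X := by rw [RingHom.id_apply, Matrix.mul_smul]

/-- `X ↦ X B` -/
def rmL (B : M2 F) : M2 F →ₗ[F] M2 F where
  toFun X := X * B
  map_add' X Y := add_mul _ _ _
  map_smul' c X := by rw [RingHom.id_apply, Matrix.smul_mul]

/-- the transposition -/
def tpL (F : Type*) [Field F] : M2 F ≃ₗ[F] M2 F := Matrix.transposeLinearEquiv (Fin 2) (Fin 2) F F

theorem det_rmL (B : M2 F) : LinearMap.det (rmL B) = B.det ^ 2 := by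
  have h := LinearMap.det_pi (R := F) (ι := Fin 2) (M := Fin 2 → F) (fun _ => Matrix.toLin' Bᵀ)
  rw [Fin.prod_univ_two, LinearMap.det_toLin', det_transpose, ← pow_two] at h
  rw [← h]
  congr 1
  apply LinearMap.ext
  intro X
  funext i
  change (X * B) i = Bᵀ.toLin' (X i)
  rw [Matrix.toLin'_apply, Matrix.mulVec_transpose]
  rfl

theorem det_lmL (A : M2 F) : LinearMap.det (lmL A) = A.det ^ 2 := by
  have h : lmL A = (tpL F : M2 F →ₗ[F] M2 F) ∘ₗ rmL Aᵀ ∘ₗ ((tpL F).symm : M2 F →ₗ[F] M2 F) := by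
    apply LinearMap.ext
    intro X
    change A * X = (Xᵀ * Aᵀ)ᵀ
    rw [transpose_mul, transpose_transpose, transpose_transpose]
  rw [h, LinearMap.det_conj, det_rmL, det_transpose]

/-- the adjugate -/
def adL (F : Type*) [Field F] : M2 F →ₗ[F] M2 F where
  toFun X := X.adjugate
  map_add' X Y := by
    rw [adj2, adj2, adj2]
    ext i j
    fin_cases i <;> fin_cases j <;> simp <;> ring
  map_smul' c X := by
    rw [adj2, adj2]
    ext i j
    fin_cases i <;> fin_cases j <;> simp

theorem det_adL : LinearMap.det (adL F) = -1 := by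
  have h : adL F = (-1 : F) • LinearMap.transvection (-(Matrix.traceLinearMap (Fin 2) F F)) (1 : M2 F) := by
    apply LinearMap.ext
    intro X
    rw [LinearMap.smul_apply, LinearMap.transvection.apply]
    change X.adjugate = (-1 : F) • (X + (-Matrix.trace X) • (1 : M2 F))
    rw [adj2]
    ext i j
    fin_cases i <;> fin_cases j <;> simp [Matrix.trace, Fin.sum_univ_two]
  rw [h, LinearMap.det_smul, LinearMap.transvection.det]
  have h1 : Module.finrank F (M2 F) = 4 := by
    rw [Module.finrank_matrix]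
    simp
  rw [h1]
  simp
  norm_num

theorem det_typ {b : Bool} {A B : M2 F} (h : A.det * B.det = 1) {f : M2 F →ₗ[F] M2 F} (hf : ∀ X, f X = Typ b A B X) :
    LinearMap.det f = if b then -1 else 1 := by
  have h2 : A.det ^ 2 * B.det ^ 2 = 1 := by rw [← mul_pow, h, one_pow]
  cases b with
  | false =>
    have h1 : f = lmL A ∘ₗ rmL B := by
      apply LinearMap.ext
      intro X
      rw [hf]
      change A * X * B = A * (X * B)
      rw [mul_assoc]
    rw [h1, LinearMap.det_comp, det_lmL, det_rmL, h2]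
    rfl
  | true =>
    have h1 : f = lmL A ∘ₗ rmL B ∘ₗ adL F := by
      apply LinearMap.ext
      intro X
      rw [hf]
      change A * X.adjugate * B = A * (X.adjugate * B)
      rw [mul_assoc]
    rw [h1, LinearMap.det_comp, LinearMap.det_comp, det_lmL, det_rmL, det_adL, ← mul_assoc, h2, one_mul]
    rfl

end Cfsg.Agent.H982.DfMat
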