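import Cfsg.Agent.H634.SdDef
import Cfsg.Agent.H613.RegGram
import Cfsg.Agent.H633.Principal
import Cfsg.Agent.Blocks.PrincipalSection
import Cfsg.Agent.CharDeep.TransferExt
import Cfsg.Agent.CharactersDeep.ExtUnique
import Cfsg.Agent.H692.Cliff
import Cfsg.Agent.S1489

/-!
# S4579, reduction: the case of a normal elementary abelian `2`-subgroup (`two_step`, task R4 of helper634)

* `reg_ne_zero`, `mem_of_reg` : membership in the principal block and the sum over the `p`-regular elements;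
* `sum_reg_indFun` : the sum of an induced character;
* `factor` : linear characters of `P` trivial on `P ∩ N`;
* `cliff` : the Clifford step;
* `two_step`.
-/

set_option autoImplicit false
set_option linter.unusedSectionVars false

open Cfsg
open scoped ComplexConjugate

namespace Cfsg.Agent.H982.SdTwo

open Cfsg.Agent.H634.Sd Cfsg.Agent.Characters Cfsg.Agent.Blocks.Blau Cfsg.Agent.Blocks.PrincipalSection
  Cfsg.Agent.H613.RegGram Cfsg.Agent.Blocks.Basic

universe u

section reg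

variable {G : Type u} [Group G] [Finite G] {p : ℕ} [hp : Fact p.Prime] {M : Ideal AlgInt}

/-- the trivial character -/
noncomputable def triv (G : Type u) [Group G] : IrrCharacter G := ⟨fun _ => 1, isIrrCharacter_one⟩

omit [Finite G] hp in
theorem rg_triv [Fintype G] (χ : G → ℂ) :
    rg p χ (triv G : G → ℂ) = (Nat.card G : ℂ)⁻¹ * ∑ g : G, regPart p χ g := by
  rw [rg_def, pair_def]
  congr 1
  refine Finset.sum_congr rfl fun g _ => ?_
  by_cases h : p ∣ orderOf g
  · rw [regPart_of_dvd h, regPart_of_dvd h, zero_mul]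
  · rw [regPart_of_not_dvd h, regPart_of_not_dvd h]
    show conj (1 : ℂ) * χ g = χ g
    rw [map_one, one_mul]

/-- a nonzero sum over the `p`-regular elements -/
theorem mem_of_reg [Fintype G] (hM : IsPModular p M) (χ : IrrCharacter G)
    (h : ∑ g : G, regPart p (χ : G → ℂ) g ≠ 0) : χ ∈ principalBlock M G := by
  have := Cfsg.Agent.Blocks.Local.isPrime_of_isPModular hM
  by_contra hcon
  have h1 := rg_eq_zero' hM (isPBlock_principalBlock (M := M) (K := G)) hcon one_mem_principalBlock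
  have h2 := rg_triv (p := p) (χ : G → ℂ)
  have h3 : rg p (χ : G → ℂ) (triv G : G → ℂ) = 0 := h1
  rw [h3] at h2
  rcases mul_eq_zero.1 h2.symm with h4 | h4
  · exact absurd h4 (inv_ne_zero (by exact_mod_cast Nat.card_pos.ne'))
  · exact h h4

/-- characters of degree prime to `p` in the principal block -/
theorem reg_ne_zero [Fintype G] (hM : IsPModular p M) (χ : IrrCharacter G) (h : χ ∈ principalBlock M G)
    (hd : ¬ p ∣ charDegree (χ : G → ℂ)) : ∑ g : G, regPart p (χ : G → ℂ) g ≠ 0 := by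
  have hMp := Cfsg.Agent.Blocks.Local.isPrime_of_isPModular hM
  have hB := isPBlock_principalBlock (M := M) (K := G)
  have h1m : triv G ∈ principalBlock M G := one_mem_principalBlock
  have hdeg1 : charDegree ((triv G : IrrCharacter G) : G → ℂ) = 1 := by
    show ⌊((1 : ℂ)).re⌋₊ = 1
    rw [Complex.one_re, Nat.floor_one]
  have hh : blockHeight p (principalBlock M G) ((triv G : IrrCharacter G) : G → ℂ) = 0 := by
    unfold blockHeight
    rw [hdeg1, Nat.factorization_one]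
    simp
  have h2 := memLocalIdeal_rg_sub hM hB h1m hh h h1m
  have h3 := not_memLocalIdeal_rg_self hM hB h1m hh
  obtain ⟨k, hk⟩ := exists_int_rg hM h1m (triv G)
  intro h0
  have h4 := rg_triv (p := p) (χ : G → ℂ)
  rw [h0, mul_zero] at h4
  rw [h4, mul_zero, zero_sub, Cfsg.Agent.Blocks.Local.memLocalIdeal_neg_iff] at h2
  have e1 : ((triv G : IrrCharacter G) : G → ℂ) 1 = 1 := rfl
  rw [e1, div_one, div_one, mul_one, irr_one_eq_charDegree χ.2, hk] at h2
  rw [hk, Cfsg.Agent.Blocks.LocalRing.memLocalIdeal_intCast_iff hM] at h3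
  have e2 : (k : ℂ) * (charDegree (χ : G → ℂ) : ℂ) = ((k * (charDegree (χ : G → ℂ) : ℤ) : ℤ) : ℂ) := by
    push_cast
    ring
  rw [e2, Cfsg.Agent.Blocks.LocalRing.memLocalIdeal_intCast_iff hM] at h2
  rcases Int.Prime.dvd_mul' hp.out h2 with h5 | h5
  · exact h3 h5
  · exact hd (by exact_mod_cast h5)

theorem reg_indFun [Fintype G] (T : Subgroup G) (ψ : T → ℂ) :
    regPart p (indFun T ψ) = indFun T (regPart p ψ) := by
  have := Fintype.ofFinite T
  funext g
  have key : ∀ x : G, extendByZero T (regPart p ψ) (x⁻¹ * g * x) =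
      if p ∣ orderOf g then 0 else extendByZero T ψ (x⁻¹ * g * x) := by
    intro x
    have ho : orderOf (x⁻¹ * g * x) = orderOf g := by
      have := orderOf_conj_eq g x⁻¹
      rwa [inv_inv] at this
    by_cases hx : x⁻¹ * g * x ∈ T
    · rw [OddOrderCharacters.Clifford.ext_apply_mem _ _ _ hx, OddOrderCharacters.Clifford.ext_apply_mem _ _ _ hx]
      have ho' : orderOf (⟨x⁻¹ * g * x, hx⟩ : T) = orderOf g := by
        rw [Subgroup.orderOf_mk, ho]
      unfold regPart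
      rw [ho']
    · rw [OddOrderCharacters.Clifford.ext_apply_not_mem _ _ _ hx,
        OddOrderCharacters.Clifford.ext_apply_not_mem _ _ _ hx, ite_self]
  unfold indFun
  simp only [key]
  by_cases h : p ∣ orderOf g
  · rw [regPart_of_dvd h]
    simp [h]
  · rw [regPart_of_not_dvd h]
    simp [h]

theorem sum_indFun [Fintype G] (T : Subgroup G) [Fintype T] (f : T → ℂ) :
    ∑ g : G, indFun T f g = (T.index : ℂ) * ∑ t : T, f t := by
  have h1 := Cfsg.Agent.CharactersDeep.NormalInd.classInner_indFun T f (fun _ : G => (1 : ℂ)) (fun _ _ => rfl)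
  unfold classInner at h1
  simp only [map_one, mul_one] at h1
  have h2 : (Nat.card G : ℂ) ≠ 0 := by exact_mod_cast Nat.card_pos.ne'
  have h3 : (Nat.card T : ℂ) ≠ 0 := by exact_mod_cast Nat.card_pos.ne'
  have h4 : (Nat.card G : ℂ) = Nat.card T * T.index := by
    exact_mod_cast T.card_mul_index.symm
  field_simp at h1
  rw [h4] at h1
  have h5 : (Nat.card T : ℂ) * (∑ g : G, indFun T f g) = (Nat.card T : ℂ) * ((T.index : ℂ) * ∑ t : T, f t) := by
    rw [← mul_assoc]
    linear_combination h1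
  exact mul_left_cancel₀ h3 h5

theorem sum_reg_indFun [Fintype G] (T : Subgroup G) [Fintype T] (ψ : T → ℂ) :
    ∑ g : G, regPart p (indFun T ψ) g = (T.index : ℂ) * ∑ t : T, regPart p ψ t := by
  rw [reg_indFun, sum_indFun]

end reg

section quot

variable {G : Type u} [Group G] [Finite G]

/-- a linear character of `P` trivial on `P ∩ N` -/
theorem factor [Fact (Nat.Prime 2)] (N : Subgroup G) [N.Normal] (P : Sylow 2 G)
    (f : (P : Subgroup G) →* ℂˣ) (hf : ∀ x : (P : Subgroup G), (x : G) ∈ N → f x = 1)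
    (hx : ∃ x, f x ^ 2 ≠ 1) : NonElem (G ⧸ N) := by
  have hsurj := QuotientGroup.mk'_surjective N
  let Q : Sylow 2 (G ⧸ N) := P.mapSurjective hsurj
  let π : (P : Subgroup G) →* (Q : Subgroup (G ⧸ N)) := (QuotientGroup.mk' N).subgroupMap (P : Subgroup G)
  have hπ : Function.Surjective π := (QuotientGroup.mk' N).subgroupMap_surjective (P : Subgroup G)
  have hker : π.ker ≤ f.ker := by
    intro x hx
    rw [MonoidHom.mem_ker] at hx ⊢
    apply hf
    have h1 : ((x : G) : G ⧸ N) = 1 := congrArg Subtype.val hx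
    exact (QuotientGroup.eq_one_iff _).1 h1
  obtain ⟨x, hx⟩ := hx
  refine ⟨Q, π.liftOfSurjective hπ ⟨f, hker⟩, π x, ?_⟩
  rw [MonoidHom.liftOfRightInverse_comp_apply]
  exact hx

theorem conj_indFun [Fintype G] (T : Subgroup G) (ψ : T → ℂ) (g : G) :
    indFun T (fun t => conj (ψ t)) g = conj (indFun T ψ g) := by
  unfold indFun
  rw [map_mul, map_inv₀, Complex.conj_natCast, map_sum]
  congr 1
  refine Finset.sum_congr rfl fun x _ => ?_
  by_cases hx : x⁻¹ * g * x ∈ T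
  · rw [OddOrderCharacters.Clifford.ext_apply_mem _ _ _ hx, OddOrderCharacters.Clifford.ext_apply_mem _ _ _ hx]
  · rw [OddOrderCharacters.Clifford.ext_apply_not_mem _ _ _ hx,
      OddOrderCharacters.Clifford.ext_apply_not_mem _ _ _ hx, map_zero]

/-- **The Clifford step**: a nonreal character of odd degree in the principal block of the stabiliser of a real
linear character. -/
theorem cliff [Fact (Nat.Prime 2)] {M : Ideal AlgInt} (hM : IsPModular 2 M) (N : Subgroup G) [hN : N.Normal]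
    (ν : N →* ℂˣ) (hν : ∀ n, ν n ^ 2 = 1) (T : Subgroup G)
    (hT : ∀ g : G, g ∈ T ↔ ∀ n : N, ν ⟨g * n * g⁻¹, hN.conj_mem n n.2 g⟩ = ν n)
    (hNT : N ≤ T) (hidx : Odd T.index) (ψ : IrrCharacter T)
    (hψN : ∀ n : N, (ψ : T → ℂ) ⟨n, hNT n.2⟩ = (ψ : T → ℂ) 1 * (ν n : ℂ))
    (hψ : Odd (charDegree (ψ : T → ℂ))) (hB : ψ ∈ principalBlock M T) (hre : ∃ t, ((ψ : T → ℂ) t).im ≠ 0) :
    HasNR M G := by
  classical
  have := Fintype.ofFinite G
  have := Fintype.ofFinite T
  have := Fintype.ofFinite (N.subgroupOf T)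
  have hreal : ∀ n : N, conj ((ν n : ℂˣ) : ℂ) = (ν n : ℂ) := by
    intro n
    have h1 : ((ν n : ℂˣ) : ℂ) * ((ν n : ℂˣ) : ℂ) = 1 := by
      rw [← Units.val_mul, ← sq, hν, Units.val_one]
    rcases mul_self_eq_one_iff.1 h1 with h2 | h2
    · rw [h2, map_one]
    · rw [h2, map_neg, map_one]
  have hsq : ∀ n : N, ((ν n : ℂˣ) : ℂ) * (ν n : ℂ) = 1 := by
    intro n
    rw [← Units.val_mul, ← sq, hν, Units.val_one]
  set θ : N → ℂ := fun n => ((ν n : ℂˣ) : ℂ) with hθ
  have hθi : IsIrrCharacter N θ := by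
    have := Cfsg.Agent.CharactersDeep.ExtUnique.isIrr_mul_hom (Core.isIrr_one (G := N)) ν
    simpa [hθ] using this
  have hT' : ∀ g : G, g ∈ T ↔ ∀ n : N, θ ⟨g * n * g⁻¹, hN.conj_mem n n.2 g⟩ = θ n := by
    intro g
    rw [hT]
    exact forall_congr' fun n => ⟨fun h => congrArg Units.val h, fun h => Units.ext h⟩
  have hcl : ∀ φ : T → ℂ, IsIrrCharacter T φ → (∀ n : N, φ ⟨n, hNT n.2⟩ = φ 1 * (ν n : ℂ)) →
      classInner (indFun (N.subgroupOf T) (fun x => θ ⟨(x : T), Subgroup.mem_subgroupOf.mp x.2⟩)) φ ≠ 0 := by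
    intro φ hφ hφN
    rw [Cfsg.Agent.CharactersDeep.NormalInd.classInner_indFun _ _ _ (Core.isIrr_isClassFunction hφ)]
    unfold classInner
    have e : ∀ x : N.subgroupOf T, θ ⟨(x : T), Subgroup.mem_subgroupOf.mp x.2⟩ * conj (φ (x : T)) =
        conj (φ 1) := by
      intro x
      have h1 := hφN ⟨(x : T), Subgroup.mem_subgroupOf.mp x.2⟩
      have h2 : φ (x : T) = φ 1 * (ν ⟨(x : T), Subgroup.mem_subgroupOf.mp x.2⟩ : ℂ) := h1
      rw [h2, map_mul, hreal, hθ]
      have h3 := hsq ⟨(x : T), Subgroup.mem_subgroupOf.mp x.2⟩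
      linear_combination (conj (φ 1)) * h3
    rw [Finset.sum_congr rfl fun x _ => e x, Finset.sum_const, Finset.card_univ, nsmul_eq_mul,
      ← Nat.card_eq_fintype_card]
    have h4 : φ 1 ≠ 0 := Core.isIrr_apply_one_ne_zero hφ
    refine mul_ne_zero (inv_ne_zero (by exact_mod_cast Nat.card_pos.ne')) (mul_ne_zero
      (by exact_mod_cast Nat.card_pos.ne') ?_)
    exact (map_ne_zero _).2 h4
  have hψc := Core.isIrr_conj ψ.2
  have hψcN : ∀ n : N, (fun t => conj ((ψ : T → ℂ) t)) ⟨n, hNT n.2⟩ =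
      (fun t => conj ((ψ : T → ℂ) t)) 1 * (ν n : ℂ) := by
    intro n
    show conj ((ψ : T → ℂ) ⟨n, hNT n.2⟩) = conj ((ψ : T → ℂ) 1) * (ν n : ℂ)
    rw [hψN, map_mul, hreal]
  obtain ⟨h1, h2⟩ := Cfsg.Agent.S1489.result N T θ hθi hT' hNT ψ _ ψ.2 hψc (hcl _ ψ.2 hψN) (hcl _ hψc hψcN)
  refine ⟨⟨indFun T ψ, h1⟩, ?_, ?_, ?_⟩
  · refine mem_of_reg (p := 2) hM _ ?_
    show ∑ g : G, regPart 2 (indFun T (ψ : T → ℂ)) g ≠ 0
    rw [sum_reg_indFun]
    refine mul_ne_zero (by exact_mod_cast Subgroup.index_ne_zero_of_finite) (reg_ne_zero hM ψ hB ?_)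
    rw [← even_iff_two_dvd, Nat.not_even_iff_odd]
    exact hψ
  · show Odd (charDegree (indFun T (ψ : T → ℂ)))
    have hd := irr_one_eq_charDegree h1
    rw [Cfsg.Agent.CharactersDeep.NormalInd.indFun_one, irr_one_eq_charDegree ψ.2] at hd
    have hd' : charDegree (indFun T (ψ : T → ℂ)) = T.index * charDegree (ψ : T → ℂ) := by
      exact_mod_cast hd.symm
    rw [hd']
    exact hidx.mul hψ
  · by_contra hcon
    push Not at hcon
    have h3 : indFun T (ψ : T → ℂ) = indFun T (fun t => conj ((ψ : T → ℂ) t)) := by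
      funext g
      rw [conj_indFun]
      exact (Complex.conj_eq_iff_im.2 (hcon g)).symm
    obtain ⟨t, ht⟩ := hre
    have h4 := congrFun (h2 h3) t
    exact ht (Complex.conj_eq_iff_im.1 h4.symm)

/-- **R4.** The case of a normal elementary abelian `2`-subgroup. -/
theorem two_step {M : Ideal AlgInt} [Fact (Nat.Prime 2)] (hM : IsPModular 2 M) (N : Subgroup G) [N.Normal]
    (hcomm : ∀ a ∈ N, ∀ b ∈ N, a * b = b * a) (hexp : ∀ a ∈ N, a ^ 2 = 1) (P : Sylow 2 G)
    (hNP : N ≤ (P : Subgroup G)) (f : (P : Subgroup G) →* ℂˣ) (hx : ∃ x, f x ^ 2 ≠ 1)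
    (hfN : ∃ x : (P : Subgroup G), (x : G) ∈ N ∧ f x ≠ 1)
    (ih : ∀ T : Subgroup G, N ≤ T → NonElem (T ⧸ N.subgroupOf T) → HasNR M (T ⧸ N.subgroupOf T)) :
    HasNR M G := by
  classical
  have hN : N.Normal := inferInstance
  have hMp := Cfsg.Agent.Blocks.Local.isPrime_of_isPModular hM
  let ν : N →* ℂˣ := f.comp (Subgroup.inclusion hNP)
  have hν : ∀ n, ν n ^ 2 = 1 := by
    intro n
    rw [← map_pow, show n ^ 2 = 1 from Subtype.ext (hexp n n.2), map_one]
  let T : Subgroup G := Cfsg.Agent.H692.Cliff.stab N (fun n => ((ν n : ℂˣ) : ℂ))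
  have hT : ∀ g : G, g ∈ T ↔ ∀ n : N, ν ⟨g * n * g⁻¹, hN.conj_mem n n.2 g⟩ = ν n := by
    intro g
    exact forall_congr' fun n => ⟨fun h => Units.ext h, fun h => congrArg Units.val h⟩
  have hPT : (P : Subgroup G) ≤ T := by
    intro g hg
    rw [hT]
    intro n
    have e : (Subgroup.inclusion hNP ⟨g * n * g⁻¹, hN.conj_mem n n.2 g⟩) =
        (⟨g, hg⟩ : (P : Subgroup G)) * Subgroup.inclusion hNP n * (⟨g, hg⟩ : (P : Subgroup G))⁻¹ := rfl
    show f (Subgroup.inclusion hNP ⟨g * n * g⁻¹, hN.conj_mem n n.2 g⟩) = f (Subgroup.inclusion hNP n)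
    rw [e, map_mul, map_mul, map_inv, mul_comm, inv_mul_cancel_left]
  have hNT : N ≤ T := hNP.trans hPT
  have hPi : Odd (P : Subgroup G).index := by
    rw [← Nat.not_even_iff_odd, even_iff_two_dvd]
    exact P.not_dvd_index
  have hidx : Odd T.index := Odd.of_dvd_nat hPi (Subgroup.index_dvd_of_le hPT)
  -- the transfer
  let H : Subgroup T := (P : Subgroup G).subgroupOf T
  have hHi : Odd H.index := by
    have h1 : H.index * T.index = (P : Subgroup G).index := Subgroup.relIndex_mul_index hPT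
    exact Odd.of_dvd_nat hPi (Dvd.intro _ h1)
  let φ : H →* ℂˣ := f.comp (Subgroup.subgroupOfEquivOfLe hPT).toMonoidHom
  let μ : T →* ℂˣ := MonoidHom.transfer φ
  have hNH : N.subgroupOf T ≤ H := fun x hx => hNP hx
  have hμN : ∀ n : N, μ ⟨n, hNT n.2⟩ = ν n := by
    intro n
    have h1 := Cfsg.Agent.CharDeep.TransferExt.transfer_apply_of_mem (N.subgroupOf T) hNH φ (by
      intro g n hn
      have h2 := (hT g).1 g.2 ⟨n, hn⟩
      exact h2) ⟨n, hNT n.2⟩ n.2
    have h3 : φ ⟨⟨n, hNT n.2⟩, hNH n.2⟩ = ν n := rfl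
    rw [h3] at h1
    obtain ⟨k, hk⟩ := hHi
    rw [hk, pow_succ, pow_mul, hν, one_pow, one_mul] at h1
    exact h1
  obtain ⟨a, ha⟩ := (IsPGroup.iff_card (p := 2)).1 P.isPGroup'
  have hμ2 : ∀ t : T, μ t ^ 2 ^ a = 1 := by
    intro t
    refine Cfsg.Agent.CharDeep.TransferExt.transfer_pow_eq_one φ (2 ^ a) (fun h => ?_) t
    show f _ ^ 2 ^ a = 1
    rw [← map_pow, ← ha, pow_card_eq_one', map_one]
  have hμr : ∀ t : T, ¬ 2 ∣ orderOf t → μ t = 1 := by
    intro t ht
    have h1 : orderOf (μ t) ∣ 2 ^ a := orderOf_dvd_of_pow_eq_one (hμ2 t)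
    have h2 : orderOf (μ t) ∣ orderOf t := orderOf_map_dvd μ t
    have h3 : Nat.Coprime (orderOf t) (2 ^ a) :=
      Nat.Coprime.pow_right _ ((Nat.prime_two.coprime_iff_not_dvd.2 ht).symm)
    have h4 : orderOf (μ t) = 1 := Nat.eq_one_of_dvd_coprimes h3 h2 h1
    exact orderOf_eq_one_iff.1 h4
  have := Fintype.ofFinite T
  by_cases hμ : ∀ t : T, μ t ^ 2 = 1
  · -- `μ` real
    have hne : NonElem (T ⧸ N.subgroupOf T) := by
      refine factor (N.subgroupOf T) (P.subtype hPT) (f := φ * (μ.comp H.subtype)⁻¹) ?_ ?_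
      · intro x hx
        have h1 : μ (x : T) = ν ⟨(x : T), hx⟩ := hμN ⟨(x : T), hx⟩
        show ν ⟨(x : T), hx⟩ * (μ (x : T))⁻¹ = 1
        rw [h1, mul_inv_cancel]
      · obtain ⟨x, hx⟩ := hx
        refine ⟨⟨⟨x, hPT x.2⟩, x.2⟩, ?_⟩
        show (f x * (μ ⟨x, hPT x.2⟩)⁻¹) ^ 2 ≠ 1
        rw [mul_pow, inv_pow, hμ, inv_one, mul_one]
        exact hx
    obtain ⟨χ, hχB, hχd, g, hg⟩ := ih T hNT hne
    set ψ₀ : IrrCharacter T := Cfsg.Agent.H633.Principal.infl (N.subgroupOf T) χ with hψ₀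
    have hψ₀B : ψ₀ ∈ principalBlock M T := Cfsg.Agent.H633.Principal.inflate_mem (N.subgroupOf T) hχB
    have hirr := Cfsg.Agent.CharactersDeep.ExtUnique.isIrr_mul_hom ψ₀.2 μ
    have hμv : ∀ t : T, ((μ t : ℂˣ) : ℂ) = 1 ∨ ((μ t : ℂˣ) : ℂ) = -1 := by
      intro t
      have h1 : ((μ t : ℂˣ) : ℂ) * ((μ t : ℂˣ) : ℂ) = 1 := by
        rw [← Units.val_mul, ← sq, hμ, Units.val_one]
      exact mul_self_eq_one_iff.1 h1
    have hd0 : charDegree (ψ₀ : T → ℂ) = charDegree (χ : (T ⧸ N.subgroupOf T) → ℂ) := rfl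
    have hd1 : charDegree (fun t : T => (ψ₀ : T → ℂ) t * (μ t : ℂ)) = charDegree (ψ₀ : T → ℂ) := by
      unfold charDegree
      simp only [map_one, Units.val_one, mul_one]
    refine cliff hM N ν hν T hT hNT hidx ⟨_, hirr⟩ ?_ ?_ ?_ ?_
    · intro n
      show (ψ₀ : T → ℂ) ⟨n, hNT n.2⟩ * (μ ⟨n, hNT n.2⟩ : ℂ) = (ψ₀ : T → ℂ) 1 * (μ 1 : ℂ) * (ν n : ℂ)
      rw [hμN, map_one, Units.val_one, mul_one]
      congr 1
      rw [hψ₀, Cfsg.Agent.H633.Principal.infl_apply, Cfsg.Agent.H633.Principal.infl_apply]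
      exact congrArg (χ : (T ⧸ N.subgroupOf T) → ℂ) ((QuotientGroup.eq_one_iff _).2 n.2)
    · show Odd (charDegree (fun t : T => (ψ₀ : T → ℂ) t * (μ t : ℂ)))
      rw [hd1, hd0]
      exact hχd
    · refine mem_of_reg (p := 2) hM _ ?_
      have e : regPart 2 (fun t : T => (ψ₀ : T → ℂ) t * (μ t : ℂ)) = regPart 2 (ψ₀ : T → ℂ) := by
        funext t
        by_cases h : 2 ∣ orderOf t
        · rw [regPart_of_dvd h, regPart_of_dvd h]
        · rw [regPart_of_not_dvd h, regPart_of_not_dvd h, hμr t h, Units.val_one, mul_one]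
      show ∑ t : T, regPart 2 (fun t : T => (ψ₀ : T → ℂ) t * (μ t : ℂ)) t ≠ 0
      rw [e]
      refine reg_ne_zero hM ψ₀ hψ₀B ?_
      rw [← even_iff_two_dvd, Nat.not_even_iff_odd, hd0]
      exact hχd
    · obtain ⟨t, rfl⟩ := QuotientGroup.mk_surjective g
      refine ⟨t, ?_⟩
      show ((ψ₀ : T → ℂ) t * (μ t : ℂ)).im ≠ 0
      have h1 : (ψ₀ : T → ℂ) t = (χ : (T ⧸ N.subgroupOf T) → ℂ) (t : T ⧸ N.subgroupOf T) := rfl
      rw [h1]
      rcases hμv t with h2 | h2
      · rw [h2, mul_one]; exact hg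
      · rw [h2, mul_neg, mul_one, Complex.neg_im]; exact neg_ne_zero.2 hg
  · -- `μ` nonreal
    push Not at hμ
    obtain ⟨t, ht⟩ := hμ
    have hirr : IsIrrCharacter T (fun t : T => ((μ t : ℂˣ) : ℂ)) := by
      have := Cfsg.Agent.CharactersDeep.ExtUnique.isIrr_mul_hom (Core.isIrr_one (G := T)) μ
      simpa using this
    have hd1 : charDegree (fun t : T => ((μ t : ℂˣ) : ℂ)) = 1 := by
      unfold charDegree
      simp
    refine cliff hM N ν hν T hT hNT hidx ⟨_, hirr⟩ ?_ ?_ ?_ ?_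
    · intro n
      show ((μ ⟨n, hNT n.2⟩ : ℂˣ) : ℂ) = ((μ 1 : ℂˣ) : ℂ) * (ν n : ℂ)
      rw [hμN, map_one, Units.val_one, one_mul]
    · show Odd (charDegree (fun t : T => ((μ t : ℂˣ) : ℂ)))
      rw [hd1]
      exact odd_one
    · refine mem_of_reg (p := 2) hM _ ?_
      have e : regPart 2 (fun t : T => ((μ t : ℂˣ) : ℂ)) = regPart 2 ((triv T : IrrCharacter T) : T → ℂ) := by
        funext t
        by_cases h : 2 ∣ orderOf t
        · rw [regPart_of_dvd h, regPart_of_dvd h]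
        · rw [regPart_of_not_dvd h, regPart_of_not_dvd h, hμr t h, Units.val_one]
          rfl
      show ∑ t : T, regPart 2 (fun t : T => ((μ t : ℂˣ) : ℂ)) t ≠ 0
      rw [e]
      refine reg_ne_zero hM (triv T) one_mem_principalBlock ?_
      have h1 : charDegree ((triv T : IrrCharacter T) : T → ℂ) = 1 := by
        show ⌊((1 : ℂ)).re⌋₊ = 1
        rw [Complex.one_re, Nat.floor_one]
      rw [h1]
      norm_num
    · refine ⟨t, fun him => ht ?_⟩
      have him' : ((μ t : ℂˣ) : ℂ).im = 0 := him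
      have h1 : ((μ t : ℂˣ) : ℂ) ^ 2 ^ a = 1 := by
        rw [← Units.val_pow_eq_pow_val, hμ2, Units.val_one]
      obtain ⟨r, hr⟩ : ∃ r : ℝ, ((μ t : ℂˣ) : ℂ) = r := ⟨_, (Complex.conj_eq_iff_re.1
        (Complex.conj_eq_iff_im.2 him')).symm⟩
      rw [hr] at h1
      have h2 : r ^ 2 ^ a = 1 := by exact_mod_cast h1
      have h3 : |r| = 1 := by
        have h4 : |r| ^ 2 ^ a = 1 := by rw [← abs_pow, h2, abs_one]
        exact (pow_eq_one_iff_of_nonneg (abs_nonneg r) (by positivity)).1 h4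
      apply Units.ext
      rw [Units.val_pow_eq_pow_val, hr, Units.val_one]
      have h5 : r ^ 2 = 1 := by rw [← sq_abs, h3, one_pow]
      exact_mod_cast h5

end quot

end Cfsg.Agent.H982.SdTwo
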