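import Cfsg.Agent.H412.Tc.HeisDefs
import Cfsg.Agent.S0144

/-!
# S3621, lemma ECase

The exceptional configuration `EData` for `r = 2`, `|K| = 3, 5`: the group `cl2 A` is solvable, as
`A` has index at most `4` in it.
-/

set_option autoImplicit false

namespace Cfsg.Agent.H982.TcECase

open Cfsg.Agent.H412.Tc

universe u

section Arith

/-- `3 ^ m - 1` is a power of two only for `m ≤ 2`. -/
theorem le_two_of_three_pow {m a : ℕ} (h : 3 ^ m = 2 ^ a + 1) : m ≤ 2 := by
  rcases Nat.even_or_odd m with ⟨k, hk⟩ | ⟨k, hk⟩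
  · -- `(3 ^ k - 1) (3 ^ k + 1) = 2 ^ a`
    obtain ⟨t, ht⟩ : ∃ t, 3 ^ k = t + 1 := ⟨3 ^ k - 1, (Nat.succ_pred_eq_of_pos (by positivity)).symm⟩
    have h1 : t * (t + 2) = 2 ^ a := by
      have : 3 ^ m = (t + 1) * (t + 1) := by rw [hk, pow_add, ht]
      rw [this] at h
      nlinarith
    have h2 : t ∣ 2 ^ a := Dvd.intro _ h1
    have h3 : t + 2 ∣ 2 ^ a := Dvd.intro_left _ h1
    obtain ⟨b, -, hb⟩ := (Nat.dvd_prime_pow Nat.prime_two).1 h2
    obtain ⟨c, -, hc⟩ := (Nat.dvd_prime_pow Nat.prime_two).1 h3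
    have hbc : 2 ^ c = 2 ^ b + 2 := by rw [← hb, ← hc]
    have hb1 : b ≤ 1 := by
      by_contra hcon
      push Not at hcon
      have h4 : 4 ∣ 2 ^ b := by
        have := pow_dvd_pow 2 (show 2 ≤ b by omega)
        simpa using this
      have h50 : 0 < 2 ^ b := by positivity
      have h5 : 2 < 2 ^ c := by omega
      have h6 : 1 < c := by
        by_contra hc1
        push Not at hc1
        have : 2 ^ c ≤ 2 ^ 1 := Nat.pow_le_pow_right (by norm_num) hc1
        omega
      have h7 : 4 ∣ 2 ^ c := by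
        have := pow_dvd_pow 2 (show 2 ≤ c by omega)
        simpa using this
      omega
    have ht2 : 3 ^ k ≤ 3 := by
      rw [ht, hb]
      have : 2 ^ b ≤ 2 ^ 1 := Nat.pow_le_pow_right (by norm_num) hb1
      omega
    have hk1 : k ≤ 1 := by
      by_contra hcon
      push Not at hcon
      have : 3 ^ 2 ≤ 3 ^ k := Nat.pow_le_pow_right (by norm_num) hcon
      omega
    omega
  · -- `3 ^ m = 3 mod 8`
    have h1 : 3 ^ m % 8 = 3 := by
      rw [hk, pow_add, pow_mul, Nat.mul_mod, Nat.pow_mod]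
      norm_num
    have h2 : a ≤ 1 := by
      by_contra hcon
      push Not at hcon
      rcases Nat.lt_or_ge a 3 with h3 | h3
      · have : a = 2 := by omega
        subst this
        omega
      · have h4 : 8 ∣ 2 ^ a := by
          have := pow_dvd_pow 2 h3
          simpa using this
        omega
    have h3 : 3 ^ m ≤ 3 := by
      rw [h]
      have : 2 ^ a ≤ 2 ^ 1 := Nat.pow_le_pow_right (by norm_num) h2
      omega
    by_contra hcon
    push Not at hcon
    have : 3 ^ 2 ≤ 3 ^ m := Nat.pow_le_pow_right (by norm_num) (by omega)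
    omega

/-- `5 ^ m - 1` is a power of two only for `m ≤ 1`. -/
theorem le_two_of_five_pow {m a : ℕ} (h : 5 ^ m = 2 ^ a + 1) : m ≤ 2 := by
  rcases Nat.even_or_odd m with ⟨k, hk⟩ | ⟨k, hk⟩
  · obtain ⟨t, ht⟩ : ∃ t, 5 ^ k = t + 1 := ⟨5 ^ k - 1, (Nat.succ_pred_eq_of_pos (by positivity)).symm⟩
    have h1 : t * (t + 2) = 2 ^ a := by
      have : 5 ^ m = (t + 1) * (t + 1) := by rw [hk, pow_add, ht]
      rw [this] at h
      nlinarith
    have h3 : t + 2 ∣ 2 ^ a := Dvd.intro_left _ h1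
    obtain ⟨c, -, hc⟩ := (Nat.dvd_prime_pow Nat.prime_two).1 h3
    have h4 : 5 ^ k % 4 = 1 := by
      rw [Nat.pow_mod]
      norm_num
    have h5 : 2 ^ c % 4 = 2 := by omega
    have h6 : c ≤ 1 := by
      by_contra hcon
      push Not at hcon
      have h7 : 4 ∣ 2 ^ c := by
        have := pow_dvd_pow 2 (show 2 ≤ c by omega)
        simpa using this
      omega
    have h7 : 5 ^ k ≤ 1 := by
      have : 2 ^ c ≤ 2 ^ 1 := Nat.pow_le_pow_right (by norm_num) h6
      omega
    have h8 : k = 0 := by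
      by_contra hcon
      have : 5 ^ 1 ≤ 5 ^ k := Nat.pow_le_pow_right (by norm_num) (by omega)
      omega
    omega
  · have h1 : 5 ^ m % 8 = 5 := by
      rw [hk, pow_add, pow_mul, Nat.mul_mod, Nat.pow_mod]
      norm_num
    have h2 : a ≤ 2 := by
      by_contra hcon
      push Not at hcon
      have h4 : 8 ∣ 2 ^ a := by
        have := pow_dvd_pow 2 (show 3 ≤ a by omega)
        simpa using this
      omega
    have h3 : 5 ^ m ≤ 5 := by
      rw [h]
      have : 2 ^ a ≤ 2 ^ 2 := Nat.pow_le_pow_right (by norm_num) h2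
      omega
    by_contra hcon
    push Not at hcon
    have : 5 ^ 2 ≤ 5 ^ m := Nat.pow_le_pow_right (by norm_num) (by omega)
    omega

end Arith

section Group

/-- A group with a solvable subgroup of index at most `4` is solvable. -/
theorem solvable_of_index {G : Type*} [Group G] [Finite G] {A : Subgroup G}
    (hA : Group.IsSolvable A) (hi : A.index ≤ 4) : Group.IsSolvable G := by
  classical
  have h0 : 0 < A.index := Nat.pos_of_ne_zero Subgroup.index_ne_zero_of_finite
  have hperm : Group.IsSolvable (Equiv.Perm (G ⧸ A)) := by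
    have h1 : Nat.card (Equiv.Perm (G ⧸ A)) = (A.index).factorial := by
      rw [Nat.card_perm]; rfl
    have h2 : ∃ a b : ℕ, Nat.card (Equiv.Perm (G ⧸ A)) = 2 ^ a * 3 ^ b := by
      rw [h1]
      set m := A.index
      interval_cases m
      · exact ⟨0, 0, rfl⟩
      · exact ⟨1, 0, rfl⟩
      · exact ⟨1, 1, rfl⟩
      · exact ⟨3, 1, rfl⟩
    obtain ⟨a, b, hab⟩ := h2
    exact Cfsg.Agent.S0144.result 2 3 a b Nat.prime_two Nat.prime_three hab
  let f : G →* Equiv.Perm (G ⧸ A) := MulAction.toPermHom G (G ⧸ A)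
  have hker : f.ker ≤ A := by
    have : f.ker = A.normalCore := (Subgroup.normalCore_eq_ker A).symm
    rw [this]
    exact Subgroup.normalCore_le A
  have hk : Group.IsSolvable f.ker := solvable_of_le hker hA
  have hq : Group.IsSolvable (G ⧸ f.ker) :=
    Group.isSolvable_of_isSolvable_injective (QuotientGroup.kerLift_injective f)
  exact (Group.isSolvable_iff_subgroup_quotient f.ker).2 ⟨hk, hq⟩

end Group

section Cf

variable {V : Type*} [AddCommGroup V]

/-- The configuration, in terms of the action on `V`. -/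
structure Cf (B : Subgroup (GV V)) (x x' y y' : GV V) (p p' : V) : Prop where
  two : ∀ v : V, v + v = 0 → v = 0
  sgn : ∀ a ∈ B, ∀ b ∈ B, (∀ v : V, a • b • v = b • a • v) ∨ (∀ v : V, a • b • v = -(b • a • v))
  hx : x ∈ B
  hx' : x' ∈ B
  hy : y ∈ B
  hy' : y' ∈ B
  hp : p ≠ 0
  xp : x • p = p
  x'p : x' • p = p
  xp' : x • p' = p'
  x'p' : x' • p' = p'
  xx : ∀ v : V, x • x • v = v
  x'x' : ∀ v : V, x' • x' • v = v
  xx' : ∀ v : V, x' • x • v = x • x' • v
  xy : ∀ v : V, x • y • v = -(y • x • v)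
  x'y : ∀ v : V, x' • y • v = y • x' • v
  x'y' : ∀ v : V, x' • y' • v = -(y' • x' • v)
  xy' : ∀ v : V, x • y' • v = y' • x • v
  stab : ∀ b ∈ B, b • p = p → b = 1 ∨ b = x ∨ b = x' ∨ b = x * x'
  gen : ∀ f : V, x • f = f → x' • f = f → ∃ a b : ℤ, f = a • p + b • p'

variable {B : Subgroup (GV V)} {x x' y y' : GV V} {p p' : V}

namespace Cf

variable (C : Cf B x x' y y' p p')
include C

theorem yp_ne : y • p ≠ 0 := fun h => C.hp ((smul_eq_zero_iff_eq y).1 h)

theorem y'p_ne : y' • p ≠ 0 := fun h => C.hp ((smul_eq_zero_iff_eq y').1 h)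

theorem x_ne : x ≠ x' := by
  intro h
  have h1 := C.xy p
  have h2 := C.x'y p
  rw [← h, h1, C.xp] at h2
  exact C.yp_ne (C.two _ (neg_eq_iff_add_eq_zero.1 h2))

/-- An element trivial on the four eigenspaces is trivial. -/
theorem eq_one {m : GV V} (h0 : ∀ f : V, x • f = f → x' • f = f → m • f = f)
    (h1 : ∀ f : V, x • f = f → x' • f = f → m • y • f = y • f)
    (h2 : ∀ f : V, x • f = f → x' • f = f → m • y' • f = y' • f)
    (h3 : ∀ f : V, x • f = f → x' • f = f → m • y • y' • f = y • y' • f) : m = 1 := by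
  have iy : ∀ v : V, x • y⁻¹ • v = -(y⁻¹ • x • v) := by
    intro v
    have := C.xy (y⁻¹ • v)
    rw [smul_inv_smul] at this
    rw [this, smul_neg, inv_smul_smul, neg_neg]
  have iy' : ∀ v : V, x' • y⁻¹ • v = y⁻¹ • x' • v := by
    intro v
    have := C.x'y (y⁻¹ • v)
    rw [smul_inv_smul] at this
    rw [this, inv_smul_smul]
  have i'y : ∀ v : V, x • y'⁻¹ • v = y'⁻¹ • x • v := by
    intro v
    have := C.xy' (y'⁻¹ • v)
    rw [smul_inv_smul] at this
    rw [this, inv_smul_smul]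
  have i'y' : ∀ v : V, x' • y'⁻¹ • v = -(y'⁻¹ • x' • v) := by
    intro v
    have := C.x'y' (y'⁻¹ • v)
    rw [smul_inv_smul] at this
    rw [this, smul_neg, inv_smul_smul, neg_neg]
  apply GV_ext
  intro v
  rw [one_smul]
  -- the four components
  have e0 : m • (v + x • v + x' • v + x • x' • v) = v + x • v + x' • v + x • x' • v := by
    apply h0
    · simp only [smul_add, C.xx]; abel
    · simp only [smul_add, C.xx', C.x'x']; abel
  have e1 : m • (v - x • v + x' • v - x • x' • v) = v - x • v + x' • v - x • x' • v := by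
    have := h1 (y⁻¹ • (v - x • v + x' • v - x • x' • v)) ?_ ?_
    · rwa [smul_inv_smul] at this
    · rw [iy, ← smul_neg]
      congr 1
      simp only [smul_add, smul_sub, C.xx]; abel
    · rw [iy']
      congr 1
      simp only [smul_add, smul_sub, C.xx', C.x'x']; abel
  have e2 : m • (v + x • v - x' • v - x • x' • v) = v + x • v - x' • v - x • x' • v := by
    have := h2 (y'⁻¹ • (v + x • v - x' • v - x • x' • v)) ?_ ?_
    · rwa [smul_inv_smul] at this
    · rw [i'y]
      congr 1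
      simp only [smul_add, smul_sub, C.xx]; abel
    · rw [i'y', ← smul_neg]
      congr 1
      simp only [smul_add, smul_sub, C.xx', C.x'x']; abel
  have e3 : m • (v - x • v - x' • v + x • x' • v) = v - x • v - x' • v + x • x' • v := by
    have := h3 (y'⁻¹ • y⁻¹ • (v - x • v - x' • v + x • x' • v)) ?_ ?_
    · rwa [smul_inv_smul, smul_inv_smul] at this
    · rw [i'y, iy, ← smul_neg]
      congr 2
      simp only [smul_add, smul_sub, C.xx]; abel
    · rw [i'y', iy', ← smul_neg, ← smul_neg]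
      congr 2
      simp only [smul_add, smul_sub, C.xx', C.x'x']; abel
  have e4 : m • (v + v + (v + v)) = v + v + (v + v) := by
    have h4 : v + v + (v + v) = (v + x • v + x' • v + x • x' • v) +
        (v - x • v + x' • v - x • x' • v) + (v + x • v - x' • v - x • x' • v) +
        (v - x • v - x' • v + x • x' • v) := by abel
    rw [h4, smul_add, smul_add, smul_add, e0, e1, e2, e3]
  rw [← sub_eq_zero]
  apply C.two
  apply C.two
  rw [smul_add, smul_add] at e4
  have e5 := sub_eq_zero.2 e4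
  rw [← e5]; abel

omit C in
theorem eq_neg_cancel (htwo : ∀ v : V, v + v = 0 → v = 0) {v : V} (h : v = -v) : v = 0 :=
  htwo v (by nth_rewrite 1 [h]; exact neg_add_cancel v)

theorem x_ne_one : x ≠ 1 := by
  intro h
  have h1 := C.xy p
  rw [h, one_smul, one_smul] at h1
  exact C.yp_ne (eq_neg_cancel C.two h1)

theorem x'_ne_one : x' ≠ 1 := by
  intro h
  have h1 := C.x'y' p
  rw [h, one_smul, one_smul] at h1
  exact C.y'p_ne (eq_neg_cancel C.two h1)

/-- An element of `B` fixing `p` fixes every vector fixed by `x` and `x'`. -/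
theorem fix_of_fix {b : GV V} (hb : b ∈ B) (hbp : b • p = p) {f : V} (h1 : x • f = f)
    (h2 : x' • f = f) : b • f = f := by
  rcases C.stab b hb hbp with rfl | rfl | rfl | rfl
  · exact one_smul _ _
  · exact h1
  · exact h2
  · rw [mul_smul, h2, h1]

variable {k : GV V} (hk : ∀ b ∈ B, k * b * k⁻¹ ∈ B) (hkp : k • p = p)
include hk hkp

theorem conj_cases {b : GV V} (hb : b ∈ B) (hbp : b • p = p) (hb1 : b ≠ 1) :
    k * b * k⁻¹ = x ∨ k * b * k⁻¹ = x' ∨ k * b * k⁻¹ = x * x' := by
  have h1 : k⁻¹ • p = p := by rw [inv_smul_eq_iff, hkp]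
  rcases C.stab _ (hk b hb) (by rw [mul_smul, mul_smul, h1, hbp, hkp]) with h | h
  · exact absurd (by rwa [mul_inv_eq_one, mul_eq_left] at h) hb1
  · exact h

/-- `k` permutes `x`, `x'`, `x x'`. -/
theorem pairs :
    (k * x * k⁻¹ = x ∧ k * x' * k⁻¹ = x') ∨ (k * x * k⁻¹ = x ∧ k * x' * k⁻¹ = x * x') ∨
    (k * x * k⁻¹ = x' ∧ k * x' * k⁻¹ = x) ∨ (k * x * k⁻¹ = x' ∧ k * x' * k⁻¹ = x * x') ∨
    (k * x * k⁻¹ = x * x' ∧ k * x' * k⁻¹ = x) ∨ (k * x * k⁻¹ = x * x' ∧ k * x' * k⁻¹ = x') := by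
  have hne : k * x * k⁻¹ ≠ k * x' * k⁻¹ := fun h => C.x_ne (by simpa using h)
  have h1 := C.conj_cases hk hkp C.hx C.xp (C.x_ne_one)
  have h2 := C.conj_cases hk hkp C.hx' C.x'p (C.x'_ne_one)
  rcases h1 with h1 | h1 | h1 <;> rcases h2 with h2 | h2 | h2
  all_goals first
    | exact absurd (h1.trans h2.symm) hne
    | tauto

omit C hk hkp in
theorem smul_conj {k b : GV V} (v : V) : k • b • v = (k * b * k⁻¹) • k • v := by
  rw [mul_smul, mul_smul, inv_smul_smul]

theorem sum_smul (v : V) : k • (v + x • v + x' • v + x • x' • v) =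
    k • v + x • k • v + x' • k • v + x • x' • k • v := by
  rw [smul_add, smul_add, smul_add, smul_conj (b := x) v, smul_conj (b := x') v,
    smul_conj (b := x) (x' • v), smul_conj (b := x') v]
  rcases C.pairs hk hkp with ⟨h1, h2⟩ | ⟨h1, h2⟩ | ⟨h1, h2⟩ | ⟨h1, h2⟩ | ⟨h1, h2⟩ | ⟨h1, h2⟩ <;>
    rw [h1, h2] <;> simp only [mul_smul, C.xx, C.xx', C.x'x'] <;> abel

variable (hkw : k • (p' + y • p + y' • p) = p' + y • p + y' • p)
include hkw

theorem smul_p' : k • p' = p' := by
  have h1 := C.sum_smul hk hkp (p' + y • p + y' • p)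
  rw [hkw] at h1
  simp only [smul_add, C.xp', C.x'p', C.xy, C.x'y, C.xy', C.x'y', C.xp, C.x'p, smul_neg] at h1
  have h2 : k • p' + k • p' + (k • p' + k • p') = p' + p' + (p' + p') := by
    have h3 : p' + y • p + y' • p + (p' + -(y • p) + y' • p) + (p' + y • p + -(y' • p)) +
        (p' + -(y • p) + -(y' • p)) = p' + p' + (p' + p') := by abel
    have h4 := h1
    rw [h3] at h4
    rw [← h4]
    abel
  rw [← sub_eq_zero]
  apply C.two
  apply C.two
  have e5 := sub_eq_zero.2 h2
  rw [← e5]; abel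

theorem smul_u : k • (y • p + y' • p) = y • p + y' • p := by
  have h1 := C.smul_p' hk hkp hkw
  have h2 := hkw
  rw [add_assoc, smul_add, h1] at h2
  exact add_left_cancel h2

/-- Either `k` centralizes `x`, `x'`, or interchanges them. -/
theorem two_cases :
    (k * x * k⁻¹ = x ∧ k • y • p = y • p ∧ k • y' • p = y' • p) ∨
    (k * x * k⁻¹ = x' ∧ k • y • p = y' • p ∧ k • y' • p = y • p) := by
  have hu := C.smul_u hk hkp hkw
  have h0 : x • x' • (y • p + y' • p) = -(y • p + y' • p) := by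
    simp only [smul_add, C.xy, C.x'y, C.xy', C.x'y', C.xp, C.x'p, smul_neg]
    abel
  have h00 : (k * x * k⁻¹) • (k * x' * k⁻¹) • (y • p + y' • p) = -(y • p + y' • p) := by
    have h3 : (k * x' * k⁻¹) • (y • p + y' • p) = k • x' • (y • p + y' • p) := by
      rw [smul_conj, hu]
    rw [h3, ← smul_conj, h0, smul_neg, hu]
  have hX : x' • (y • p + y' • p) ≠ -(y • p + y' • p) := by
    intro h
    simp only [smul_add, C.x'y, C.x'y', C.x'p, neg_add] at h
    exact C.yp_ne (eq_neg_cancel C.two (add_right_cancel h))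
  have hX' : x • (y • p + y' • p) ≠ -(y • p + y' • p) := by
    intro h
    simp only [smul_add, C.xy, C.xy', C.xp, neg_add] at h
    exact C.y'p_ne (eq_neg_cancel C.two (add_left_cancel h))
  have hxu : x • (y • p + y' • p) = -(y • p) + y' • p := by
    simp only [smul_add, C.xy, C.xy', C.xp]
  have hx'u : x' • (y • p + y' • p) = y • p + -(y' • p) := by
    simp only [smul_add, C.x'y, C.x'y', C.x'p]
  have hkx : k • x • (y • p + y' • p) = (k * x * k⁻¹) • (y • p + y' • p) := by
    rw [smul_conj, hu]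
  rcases C.pairs hk hkp with ⟨h1, h2⟩ | ⟨h1, h2⟩ | ⟨h1, h2⟩ | ⟨h1, h2⟩ | ⟨h1, h2⟩ | ⟨h1, h2⟩
  · -- `k` commutes with `x`
    left
    rw [h1, hxu, smul_add, smul_neg] at hkx
    rw [smul_add] at hu
    have h3 : k • y' • p = y' • p := by
      rw [← sub_eq_zero]
      apply C.two
      have e1 := congrArg₂ (· + ·) hkx hu
      have e2 := sub_eq_zero.2 e1
      rw [← e2]; abel
    refine ⟨h1, ?_, h3⟩
    rw [h3] at hu
    exact add_right_cancel hu
  · rw [h1, h2] at h00
    simp only [mul_smul, C.xx] at h00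
    exact absurd h00 hX
  · right
    rw [h1, hxu, hx'u, smul_add, smul_neg] at hkx
    rw [smul_add] at hu
    have h3 : k • y' • p = y • p := by
      rw [← sub_eq_zero]
      apply C.two
      have e1 := congrArg₂ (· + ·) hkx hu
      have e2 := sub_eq_zero.2 e1
      rw [← e2]; abel
    refine ⟨h1, ?_, h3⟩
    rw [h3, add_comm (y • p) (y' • p)] at hu
    exact add_right_cancel hu
  · rw [h1, h2] at h00
    simp only [mul_smul, C.xx', C.x'x'] at h00
    exact absurd h00 hX'
  · rw [h1, h2] at h00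
    simp only [mul_smul, C.xx', C.xx] at h00
    exact absurd h00 hX
  · rw [h1, h2] at h00
    simp only [mul_smul, C.x'x'] at h00
    exact absurd h00 hX'

theorem sign_cases : k • y • y' • p = y • y' • p ∨ k • y • y' • p = -(y • y' • p) := by
  have hkp' : k⁻¹ • p = p := by rw [inv_smul_eq_iff, hkp]
  have hj : ∀ j : GV V, j ∈ B → j • p = p → (j • y • p = y • p ∨ j • y • p = -(y • p)) ∧
      (j • y' • p = y' • p ∨ j • y' • p = -(y' • p)) := by
    intro j hj hjp
    rcases C.stab j hj hjp with rfl | rfl | rfl | rfl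
    · exact ⟨Or.inl (one_smul _ _), Or.inl (one_smul _ _)⟩
    · rw [C.xy, C.xy', C.xp]; exact ⟨Or.inr rfl, Or.inl rfl⟩
    · rw [C.x'y, C.x'y', C.x'p]; exact ⟨Or.inl rfl, Or.inr rfl⟩
    · rw [mul_smul, mul_smul, C.x'y, C.x'y', C.x'p, smul_neg, C.xy, C.xy', C.xp]
      exact ⟨Or.inr rfl, Or.inr rfl⟩
  have hyB := hk y C.hy
  rcases C.two_cases hk hkp hkw with ⟨-, h1, h2⟩ | ⟨-, h1, h2⟩
  · -- `k y k⁻¹ = y j`
    obtain ⟨j, hjB, hjp, hj1⟩ : ∃ j ∈ B, j • p = p ∧ k * y * k⁻¹ = y * j := by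
      refine ⟨y⁻¹ * (k * y * k⁻¹), B.mul_mem (B.inv_mem C.hy) hyB, ?_, by group⟩
      rw [mul_smul, mul_smul, mul_smul, hkp', h1, inv_smul_smul]
    rw [smul_conj, h2, hj1, mul_smul]
    rcases (hj j hjB hjp).2 with h3 | h3 <;> rw [h3]
    · left; rfl
    · right; rw [smul_neg]
  · obtain ⟨j, hjB, hjp, hj1⟩ : ∃ j ∈ B, j • p = p ∧ k * y * k⁻¹ = y' * j := by
      refine ⟨y'⁻¹ * (k * y * k⁻¹), B.mul_mem (B.inv_mem C.hy') hyB, ?_, by group⟩
      rw [mul_smul, mul_smul, mul_smul, hkp', h1, inv_smul_smul]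
    rw [smul_conj, h2, hj1, mul_smul]
    rcases (hj j hjB hjp).1 with h3 | h3 <;> rw [h3] <;>
      rcases C.sgn y' C.hy' y C.hy with h4 | h4
    · left; rw [h4]
    · right; rw [h4]
    · right; rw [smul_neg, h4]
    · left; rw [smul_neg, h4, neg_neg]

/-- `k` is determined by two signs. -/
theorem eq_one_of (hx1 : k * x * k⁻¹ = x) (hyy : k • y • y' • p = y • y' • p) : k = 1 := by
  have hkp' : k⁻¹ • p = p := by rw [inv_smul_eq_iff, hkp]
  have h12 : k • y • p = y • p ∧ k • y' • p = y' • p := by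
    rcases C.two_cases hk hkp hkw with ⟨-, h1, h2⟩ | ⟨h0, -, -⟩
    · exact ⟨h1, h2⟩
    · exact absurd (hx1.symm.trans h0) C.x_ne
  have hF : ∀ f : V, x • f = f → x' • f = f → k • f = f := by
    intro f h1 h2
    obtain ⟨a, b, rfl⟩ := C.gen f h1 h2
    have h3 : ∀ (n : ℤ) (v : V), k • (n • v) = n • (k • v) := fun n v =>
      map_zsmul (DistribSMul.toAddMonoidHom V k) n v
    rw [smul_add, h3, h3, hkp, C.smul_p' hk hkp hkw]
  have hG : ∀ g ∈ B, k • g • p = g • p → ∀ f : V, x • f = f → x' • f = f →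
      k • g • f = g • f := by
    intro g hg hgp f h1 h2
    have h3 : (g⁻¹ * (k * g * k⁻¹)) • f = f := by
      apply C.fix_of_fix (B.mul_mem (B.inv_mem hg) (hk g hg)) _ h1 h2
      rw [mul_smul, mul_smul, mul_smul, hkp', hgp, inv_smul_smul]
    rw [mul_smul, inv_smul_eq_iff] at h3
    rw [smul_conj, hF f h1 h2, h3]
  refine C.eq_one hF (hG y C.hy h12.1) (hG y' C.hy' h12.2) ?_
  have h3 := hG (y * y') (B.mul_mem C.hy C.hy') (by rw [mul_smul]; exact hyy)
  intro f h1 h2
  have h4 := h3 f h1 h2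
  rwa [mul_smul] at h4

end Cf

end Cf

section Main

variable {K V : Type u} [Field K] [Finite K] [AddCommGroup V] [Finite V] [Module K V]
  {A B : Subgroup (GV V)}

omit [Finite K] [Finite V] in
theorem int_of (hK : Nat.card K = 3 ∨ Nat.card K = 5) (c : K) :
    ∃ n : ℤ, ∀ w : V, c • w = n • w := by
  have hp : (Nat.card K).Prime := by rcases hK with h | h <;> rw [h] <;> norm_num
  have : Fact (Nat.card K).Prime := ⟨hp⟩
  have hc : c ∈ AddSubgroup.zmultiples (1 : K) :=
    mem_zmultiples_of_prime_card rfl one_ne_zero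
  obtain ⟨n, hn⟩ := AddSubgroup.mem_zmultiples_iff.1 hc
  refine ⟨n, fun w => ?_⟩
  rw [← hn, smul_assoc, one_smul]

omit [Finite K] [Finite V] in
/-- The fixed space of `x` and `x'`. -/
def fixS (K : Type u) {V : Type u} [Field K] [AddCommGroup V] [Module K V] {x x' : GV V}
    (hx : Lin K x) (hx' : Lin K x') : Submodule K V where
  carrier := {v | x • v = v ∧ x' • v = v}
  add_mem' := by
    rintro a b ⟨h1, h2⟩ ⟨h3, h4⟩
    exact ⟨by rw [smul_add, h1, h3], by rw [smul_add, h2, h4]⟩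
  zero_mem' := ⟨smul_zero _, smul_zero _⟩
  smul_mem' := by
    rintro c v ⟨h1, h2⟩
    exact ⟨by rw [hx, h1], by rw [hx', h2]⟩

omit [Finite V] in
/-- `B` is a `2`-group. -/
theorem isPGroup_B (hB : Heis K V 2 B) (hK : Nat.card K = 3 ∨ Nat.card K = 5) :
    IsPGroup 2 B := by
  rintro ⟨b, hb⟩
  refine ⟨3, ?_⟩
  obtain ⟨c, hc⟩ := hB.pow b hb
  have hc4 : c ^ 4 = 1 := by
    have := Fintype.ofFinite K
    have h1 : (c : K) ^ (Fintype.card K - 1) = 1 := FiniteField.pow_card_sub_one_eq_one _ c.ne_zero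
    rw [← Nat.card_eq_fintype_card] at h1
    apply Units.ext
    rw [Units.val_pow_eq_pow_val, Units.val_one]
    rcases hK with h | h
    · rw [h] at h1
      have : (c : K) ^ 4 = ((c : K) ^ (3 - 1)) ^ 2 := by rw [← pow_mul]
      rw [this, h1, one_pow]
    · rw [h] at h1
      exact h1
  apply Subtype.ext
  show b ^ (2 ^ 3) = 1
  have : b ^ (2 ^ 3) = (b ^ 2) ^ 4 := by rw [← pow_mul]; norm_num
  rw [this, hc, ← map_pow, hc4, map_one]

theorem finite_GV (V : Type*) [AddCommGroup V] [Finite V] : Finite (GV V) := by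
  have h1 : Finite (AddMonoid.End V) :=
    Finite.of_injective (fun f : AddMonoid.End V => (f : V → V)) DFunLike.coe_injective
  exact Finite.of_injective (fun u : GV V => (u : AddMonoid.End V)) Units.val_injective

/-- The space fixed by `x` and `x'` is generated by two elements. -/
theorem exists_gen (hB : Heis K V 2 B) (hK : Nat.card K = 3 ∨ Nat.card K = 5) {x x' : GV V}
    {p : V} (hx : x ∈ B) (hx' : x' ∈ B) (hp : p ≠ 0) (hxp : x • p = p) (hx'p : x' • p = p)
    (horb : ∀ f : V, f ≠ 0 → x • f = f → x' • f = f → ∃ b ∈ B, f = b • p) :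
    ∃ p' : V, x • p' = p' ∧ x' • p' = p' ∧
      ∀ f : V, x • f = f → x' • f = f → ∃ a b : ℤ, f = a • p + b • p' := by
  classical
  have hV : Nontrivial V := ⟨⟨p, 0, hp⟩⟩
  let F : Submodule K V := fixS K (hB.linb hx) (hB.linb hx')
  have hmem : ∀ v, v ∈ F ↔ x • v = v ∧ x' • v = v := fun v => Iff.rfl
  -- the centralizer of `x`, `x'` in `B`
  let C : Subgroup (GV V) := B ⊓ Subgroup.centralizer {x, x'}
  have hC : IsPGroup 2 C := (isPGroup_B hB hK).to_le inf_le_left
  have horbit : MulAction.orbit C p = {v | v ∈ F ∧ v ≠ 0} := by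
    ext v
    constructor
    · rintro ⟨⟨g, hg⟩, rfl⟩
      have h1 := (Subgroup.mem_inf.1 hg).2
      rw [Subgroup.mem_centralizer_iff] at h1
      have h2 : x * g = g * x := h1 x (by simp)
      have h3 : x' * g = g * x' := h1 x' (by simp)
      refine ⟨⟨?_, ?_⟩, ?_⟩
      · show x • g • p = g • p
        rw [← mul_smul, h2, mul_smul, hxp]
      · show x' • g • p = g • p
        rw [← mul_smul, h3, mul_smul, hx'p]
      · show g • p ≠ 0
        exact fun h => hp ((smul_eq_zero_iff_eq g).1 h)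
    · rintro ⟨⟨h1, h2⟩, h3⟩
      obtain ⟨b, hb, rfl⟩ := horb v h3 h1 h2
      have key : ∀ t ∈ B, t • p = p → t • b • p = b • p → t * b = b * t := by
        intro t ht htp htb
        obtain ⟨c, hc⟩ := hB.cc ht hb
        have h4 := hc.smul p
        rw [htp, htb] at h4
        have h5 : (1 : K) • (b • p) = (c : K) • (b • p) := by rw [one_smul]; exact h4
        have h6 := smul_left_injective K h3 h5
        have h7 : c = 1 := Units.ext h6.symm
        rw [h7] at hc
        exact cc_one_iff.1 hc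
      refine ⟨⟨b, Subgroup.mem_inf.2 ⟨hb, ?_⟩⟩, rfl⟩
      rw [Subgroup.mem_centralizer_iff]
      intro t ht
      rcases ht with rfl | ht
      · exact key _ hx hxp h1
      · rw [Set.mem_singleton_iff] at ht
        subst ht
        exact key _ hx' hx'p h2
  obtain ⟨a, ha⟩ := hC.card_orbit p
  have hcard : Nat.card F = 2 ^ a + 1 := by
    rw [← ha, horbit]
    have h1 : ({v | v ∈ F ∧ v ≠ 0} : Set V) = (F : Set V) \ {0} := by
      ext v; simp
    rw [h1, Nat.card_coe_set_eq]
    have h2 : Nat.card F = (F : Set V).ncard := by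
      rw [← Nat.card_coe_set_eq]; rfl
    rw [h2]
    have h3 : (0 : V) ∈ (F : Set V) := F.zero_mem
    exact (Set.ncard_sdiff_singleton_add_one h3 (Set.toFinite _)).symm
  have hfin : Module.finrank K F ≤ 2 := by
    rw [Module.natCard_eq_pow_finrank (K := K) (V := F)] at hcard
    rcases hK with h | h
    · rw [h] at hcard
      exact le_two_of_three_pow hcard
    · rw [h] at hcard
      exact le_two_of_five_pow hcard
  by_cases hall : ∀ f ∈ F, ∃ c : K, f = c • p
  · refine ⟨p, hxp, hx'p, fun f h1 h2 => ?_⟩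
    obtain ⟨c, hc⟩ := hall f ⟨h1, h2⟩
    obtain ⟨n, hn⟩ := int_of (V := V) hK c
    exact ⟨n, 0, by rw [hc, hn, zero_smul, add_zero]⟩
  · push Not at hall
    obtain ⟨f0, hf0, hne⟩ := hall
    refine ⟨f0, hf0.1, hf0.2, fun f h1 h2 => ?_⟩
    have hli : LinearIndependent K ![(⟨p, hxp, hx'p⟩ : F), ⟨f0, hf0⟩] := by
      rw [LinearIndependent.pair_iff]
      intro s t hst
      have h3 : s • p + t • f0 = 0 := congrArg Subtype.val hst
      have ht : t = 0 := by
        by_contra ht
        apply hne (-(t⁻¹ * s))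
        have h4 : t⁻¹ • (s • p + t • f0) = 0 := by rw [h3, smul_zero]
        rw [smul_add, smul_smul, smul_smul, inv_mul_cancel₀ ht, one_smul] at h4
        rw [neg_smul]
        exact eq_neg_of_add_eq_zero_right h4
      subst ht
      rw [zero_smul, add_zero] at h3
      exact ⟨(smul_eq_zero.1 h3).resolve_right hp, rfl⟩
    have h3 : Module.finrank K F = 2 := by
      refine le_antisymm hfin ?_
      have := hli.fintype_card_le_finrank
      simpa using this
    have h4 := hli.span_eq_top_of_card_eq_finrank (by simp [h3])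
    have h5 : (⟨f, h1, h2⟩ : F) ∈ Submodule.span K (Set.range ![(⟨p, hxp, hx'p⟩ : F), ⟨f0, hf0⟩]) := by
      rw [h4]; trivial
    rw [Matrix.range_cons, Matrix.range_cons, Matrix.range_empty, Set.union_empty,
      Set.singleton_union, Submodule.mem_span_pair] at h5
    obtain ⟨s, t, hst⟩ := h5
    have h6 : s • p + t • f0 = f := congrArg Subtype.val hst
    obtain ⟨m, hm⟩ := int_of (V := V) hK s
    obtain ⟨n, hn⟩ := int_of (V := V) hK t
    exact ⟨m, n, by rw [← h6, hm, hn]⟩

/-- The configuration from `EData`. -/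
theorem exists_cf (S : SetB K V A B 2) (hK : Nat.card K = 3 ∨ Nat.card K = 5)
    (hE : EData K B) : ∃ (x x' y y' : GV V) (p p' : V), Cf B x x' y y' p p' := by
  obtain ⟨x, hx, x', hx', y, hy, y', hy', p, hp, hxp, hx'p, hx2, hx'2, hxx', hxy, hx'y, hx'y',
    hxy', hall⟩ := hE
  have hB := S.heis
  have hV : Nontrivial V := ⟨⟨p, 0, hp⟩⟩
  obtain ⟨p', h1, h2, hgen⟩ := exists_gen hB hK hx hx' hp hxp hx'p
    (fun f h1 h2 h3 => (hall f h1 h2 h3).2)
  obtain ⟨b0, hb0, hns⟩ := S.ns
  obtain ⟨ω, hω1, hω2⟩ := hB.exists_root hb0 hns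
  have h20 : (2 : K) ≠ 0 := by
    have := prime_ne_zero hB.prime hω1 hω2
    simpa using this
  have htwo : ∀ v : V, v + v = 0 → v = 0 := by
    intro v hv
    rw [← two_smul K] at hv
    exact (smul_eq_zero.1 hv).resolve_left h20
  have hneg : ∀ v : V, ((-1 : Kˣ) : K) • v = -v := by
    intro v
    rw [Units.val_neg, Units.val_one, neg_smul, one_smul]
  have hcomm : ∀ {a b : GV V}, a * b = b * a → ∀ v : V, a • b • v = b • a • v := by
    intro a b h v
    rw [← mul_smul, h, mul_smul]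
  refine ⟨x, x', y, y', p, p', htwo, ?_, hx, hx', hy, hy', hp, hxp, hx'p, h1, h2, ?_, ?_,
    hcomm hxx'.symm, ?_, hcomm hx'y, ?_, hcomm hxy', ?_, hgen⟩
  · intro a ha b hb
    obtain ⟨c, hc⟩ := hB.cc ha hb
    have h3 : c ^ 2 = 1 := hB.cc_pow ha hb hc
    have h4 : (c : K) = 1 ∨ (c : K) = -1 := by
      have : (c : K) ^ 2 = 1 := by rw [← Units.val_pow_eq_pow_val, h3, Units.val_one]
      exact mul_self_eq_one_iff.1 (by rw [← pow_two]; exact this)
    rcases h4 with h4 | h4
    · left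
      intro v
      rw [hc.smul v, h4, one_smul]
    · right
      intro v
      rw [hc.smul v, h4, neg_smul, one_smul]
  · intro v
    rw [← mul_smul, ← pow_two, hx2, one_smul]
  · intro v
    rw [← mul_smul, ← pow_two, hx'2, one_smul]
  · intro v
    rw [hxy.smul v, hneg]
  · intro v
    rw [hx'y'.smul v, hneg]
  · intro b hb hbp
    obtain ⟨i, j, c, hc⟩ := (hall p hp hxp hx'p).1 b hb ⟨1, by rw [hbp]; simp⟩
    have hc1 : c = 1 := by
      have h3 : b • p = (c : K) • p := by
        have h4 : ∀ (t : GV V) (n : ℕ), t • p = p → t ^ n • p = p := by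
          intro t n ht
          induction n with
          | zero => simp
          | succ n ih => rw [pow_succ, mul_smul, ht, ih]
        rw [hc, mul_smul, mul_smul, h4 x' j hx'p, h4 x i hxp, scal_smul]
      rw [hbp] at h3
      have h5 : (1 : K) • p = (c : K) • p := by rw [one_smul]; exact h3
      exact Units.ext (smul_left_injective K hp h5).symm
    have hpow : ∀ (t : GV V) (n : ℕ), t ^ 2 = 1 → t ^ n = 1 ∨ t ^ n = t := by
      intro t n ht
      rcases Nat.even_or_odd' n with ⟨m, rfl | rfl⟩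
      · left; rw [pow_mul, ht, one_pow]
      · right; rw [pow_succ, pow_mul, ht, one_pow, one_mul]
    rw [hc1, map_one, one_mul] at hc
    rcases hpow x i hx2 with h3 | h3 <;> rcases hpow x' j hx'2 with h4 | h4 <;>
      rw [h3, h4] at hc
    · left; rw [hc, one_mul]
    · right; right; left; rw [hc, one_mul]
    · right; left; rw [hc, mul_one]
    · right; right; right; exact hc

theorem ECase.main (S : SetB K V A B 2) (hs : ∀ h ∈ cl2 A, Semi K h)
    (hn : ∀ h ∈ cl2 A, ∀ b ∈ B, h * b * h⁻¹ ∈ B)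
    (hK : Nat.card K = 3 ∨ Nat.card K = 5) (hE : EData K B) : Group.IsSolvable (cl2 A) := by
  classical
  have hfin : Finite (GV V) := finite_GV V
  obtain ⟨x, x', y, y', p, p', C⟩ := exists_cf S hK hE
  set w := p' + y • p + y' • p with hw
  -- the stabilizer of `p` and `w`
  let T : Set (GV V) := {k | k ∈ cl2 A ∧ k • p = p ∧ k • w = w}
  have hTinv : ∀ k ∈ T, k⁻¹ ∈ T := by
    rintro k ⟨h1, h2, h3⟩
    exact ⟨(cl2 A).inv_mem h1, by rw [inv_smul_eq_iff, h2], by rw [inv_smul_eq_iff, h3]⟩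
  have hTmul : ∀ k ∈ T, ∀ l ∈ T, k * l ∈ T := by
    rintro k ⟨h1, h2, h3⟩ l ⟨h4, h5, h6⟩
    exact ⟨(cl2 A).mul_mem h1 h4, by rw [mul_smul, h5, h2], by rw [mul_smul, h6, h3]⟩
  let f : T → Bool × Bool := fun k =>
    (decide ((k : GV V) * x * (k : GV V)⁻¹ = x), decide ((k : GV V) • y • y' • p = y • y' • p))
  have hf : Function.Injective f := by
    rintro ⟨k, hk⟩ ⟨l, hl⟩ hkl
    have h1 : (k * x * k⁻¹ = x) ↔ (l * x * l⁻¹ = x) := by
      have := congrArg Prod.fst hkl
      simpa [f] using this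
    have h2 : (k • y • y' • p = y • y' • p) ↔ (l • y • y' • p = y • y' • p) := by
      have := congrArg Prod.snd hkl
      simpa [f] using this
    have h3 : k * x * k⁻¹ = l * x * l⁻¹ := by
      rcases C.two_cases (hn k hk.1) hk.2.1 hk.2.2 with ⟨h4, -, -⟩ | ⟨h4, -, -⟩
      · rw [h4, h1.1 h4]
      · rcases C.two_cases (hn l hl.1) hl.2.1 hl.2.2 with ⟨h5, -, -⟩ | ⟨h5, -, -⟩
        · exact absurd ((h1.2 h5).symm.trans h4) C.x_ne
        · rw [h4, h5]
    have h4 : k • y • y' • p = l • y • y' • p := by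
      rcases C.sign_cases (hn k hk.1) hk.2.1 hk.2.2 with h5 | h5
      · rw [h5, h2.1 h5]
      · rcases C.sign_cases (hn l hl.1) hl.2.1 hl.2.2 with h6 | h6
        · rw [h2.2 h6, h6]
        · rw [h5, h6]
    have hm := hTmul _ (hTinv k hk) l hl
    have h5 : k⁻¹ * l = 1 := by
      refine C.eq_one_of (hn _ hm.1) hm.2.1 hm.2.2 ?_ ?_
      · have : k⁻¹ * l * x * (k⁻¹ * l)⁻¹ = k⁻¹ * (l * x * l⁻¹) * k := by group
        rw [this, ← h3]; group
      · rw [mul_smul, ← h4, inv_smul_smul]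
    apply Subtype.ext
    exact (inv_mul_eq_one.1 h5)
  have hTcard : Nat.card T ≤ 4 := by
    have := Nat.card_le_card_of_injective f hf
    simpa using this
  -- the index of `A`
  have hidx : (A.subgroupOf (cl2 A)).index ≤ 4 := by
    refine le_trans ?_ hTcard
    let φ : T → (cl2 A) ⧸ (A.subgroupOf (cl2 A)) := fun k => ((⟨k.1, k.2.1⟩ : cl2 A) : _)
    have hφ : Function.Surjective φ := by
      intro q
      obtain ⟨h, rfl⟩ := QuotientGroup.mk_surjective q
      obtain ⟨g, hg, h1, h2⟩ := mem_cl2.1 (cl2 A |>.inv_mem h.2) p w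
      -- `g⁻¹ h⁻¹` fixes `p` and `w`
      have hmem : g⁻¹ * (h : GV V)⁻¹ ∈ T := by
        refine ⟨(cl2 A).mul_mem ((cl2 A).inv_mem (le_cl2 A hg)) ((cl2 A).inv_mem h.2), ?_, ?_⟩
        · rw [mul_smul, ← h1, inv_smul_smul]
        · rw [mul_smul, ← h2, inv_smul_smul]
      refine ⟨⟨_, hTinv _ hmem⟩, ?_⟩
      show ((⟨(g⁻¹ * (h : GV V)⁻¹)⁻¹, _⟩ : cl2 A) : (cl2 A) ⧸ (A.subgroupOf (cl2 A))) = _
      rw [QuotientGroup.eq, Subgroup.mem_subgroupOf]
      show ((g⁻¹ * (h : GV V)⁻¹)⁻¹)⁻¹ * (h : GV V) ∈ A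
      have : ((g⁻¹ * (h : GV V)⁻¹)⁻¹)⁻¹ * (h : GV V) = g⁻¹ := by group
      rw [this]
      exact A.inv_mem hg
    exact Nat.card_le_card_of_surjective φ hφ
  have hsolv : Group.IsSolvable A := S.solv
  refine solvable_of_index (A := A.subgroupOf (cl2 A)) ?_ hidx
  exact Group.isSolvable_of_isSolvable_injective
    (f := (Subgroup.subgroupOfEquivOfLe (le_cl2 A)).toMonoidHom)
    (Subgroup.subgroupOfEquivOfLe (le_cl2 A)).injective

end Main

end Cfsg.Agent.H982.TcECase
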