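import Cfsg.Agent.H982.TriNineOct
import Cfsg.Agent.H12.Bal.TriMain
import Cfsg.Agent.H350.Tri.Defs

/-!
# S2187, row TRI-9 (NINE) (helper982)

* `exists_nine` : the common fixed points of an automorphism `θ` of order three in the graph coset and of a Frobenius
  automorphism commuting with it contain an elementary abelian group of order 9;
* `exists_nine_std` : the same for the standard triality.
-/

set_option autoImplicit false
set_option linter.unusedSectionVars false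

namespace Cfsg.Agent.H982.TriNine

open Module QuadraticMap Cfsg.Agent.LieClassical.OrthCore Cfsg.Agent.LieClassical.OrthTrans
  Cfsg.Agent.LieClassical.OrthSimple Cfsg.Agent.ClassicalGeometry.OrthAut1
  Cfsg.Agent.ClassicalGeometry.OrthSemi Cfsg.Agent.H198.Classes Cfsg.Agent.H198.OrthFrame
  Cfsg.Agent.LieClassical.QuadForms Cfsg.Agent.H198.ClassesPlus Cfsg.Agent.H198.Carriers
  Cfsg.Agent.ClassicalGeometry.TrialityOct Cfsg.Agent.ClassicalGeometry.Triality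
  Cfsg.Agent.ClassicalGeometry.TrialitySpaces Cfsg.Agent.H198.TriBase Cfsg.Agent.H198.TriAut
  Cfsg.Agent.AutOrth.Main
open Cfsg Cfsg.Lie

universe u

section POm

variable {F : Type u} [Field F]

/-- The field automorphisms. -/
theorem hasN_of_field [Finite F] {Q : QuadraticForm F (Fin 4 ⊕ Fin 4 → F)} (hQ : Q = plusForm 4 F) (hG : Good Q)
    {σ : F ≃+* F} (hfix : H185.OrthCent.Fix σ Q) : HasN (Phi hG (H185.OrthCent.frobG hfix)) := by
  subst hQ
  apply HasN.of_congr (pe hG)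
  have e1 : H185.OrthCent.frobG hfix = fG σ := by
    apply Subtype.ext
    ext1 v
    rw [H185.OrthCent.frobG_apply]
    rfl
  have e2 : MulAut.congr (pe hG) (Phi hG (H185.OrthCent.frobG hfix)) = Psi (plusForm 4 F) (fG σ) := by
    rw [e1]
    exact H208.PlusAsm.tr_Phi hG (fG σ)
  rw [e2]
  exact hasN_fG hG σ

theorem hasN_of_class [Finite F] {x : MulAut (POmega F (quadFormPlus 4 F))}
    (h : IsFieldAutClassPOmega (quadFormPlus 4 F) x) : HasN x := by
  have hG := good_plusQ (F := F) (m := 4) (by omega)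
  obtain ⟨α, φ, σ, hσ, hφ, hc⟩ := h
  apply HasN.of_conj α
  have h1 : α * x * α⁻¹ = Phi hG (H185.OrthCent.frobG (H208.PlusAsm.fix_plus 4 σ)) := by
    rw [hc]
    exact (H185.OrthCent.isFieldAut_iff hG (H208.PlusAsm.fix_plus 4 σ) φ).1 hφ
  rw [h1]
  exact hasN_of_field (plusQ_eq 4 F) hG _

theorem hasN_of_not_mem' [Finite F] (h3 : (3 : F) ≠ 0) {Q : QuadraticForm F (Fin 4 ⊕ Fin 4 → F)}
    (hQ : Q = plusForm 4 F) (hG : Good Q) {x : MulAut (POmega F ⇑Q)} (hx : tr hG x ∉ (Psi Q).range)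
    (ho : x ^ 3 = 1) : HasN x := by
  subst hQ
  apply HasN.of_congr (pe hG)
  refine hasN_of_not_mem h3 hG hx ?_
  rw [← map_pow, ho, map_one]

theorem tr_inner {Q : QuadraticForm F (Fin 4 ⊕ Fin 4 → F)} (hG : Good Q) {x : MulAut (POmega F ⇑Q)} {p : P Q}
    (hp : MulAut.conj p = tr hG x) : x = MulAut.conj ((pe hG).symm p) := by
  apply (MulAut.congr (pe hG)).injective
  rw [H521.RowD4.congr_conj, MulEquiv.apply_symm_apply]
  exact hp.symm

theorem tr_pow_three {Q : QuadraticForm F (Fin 4 ⊕ Fin 4 → F)} (hG : Good Q) {x : MulAut (POmega F ⇑Q)}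
    (ho : x ^ 3 = 1) : tr hG x ^ 3 = 1 := by
  change MulAut.congr (pe hG) x ^ 3 = 1
  rw [← map_pow, ho, map_one]

theorem hasN_of' [Finite F] (h3 : (3 : F) ≠ 0) {x : MulAut (POmega F ⇑(plusQ 4 F))} (ho : x ^ 3 = 1)
    (hni : ∀ g, x ≠ MulAut.conj g) : HasN x := by
  have hG := good_plusQ (F := F) (m := 4) (by omega)
  by_cases hx : tr hG x ∈ (Psi (plusQ 4 F)).range
  · obtain ⟨M, hM⟩ := hx
    obtain ⟨σ, c, hs⟩ := M.2
    by_cases hσ : σ = 1
    · exfalso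
      subst hσ
      obtain ⟨p, hp⟩ := H521.RowD4.Psi_pow_four hG hs
      rw [hM, pow_succ, tr_pow_three hG ho, one_mul] at hp
      exact hni _ (tr_inner hG hp)
    · have hx1 : x ≠ 1 := fun h => hni 1 (by rw [h, map_one])
      exact hasN_of_class (H208.PlusAsm.isFieldAutClassPlus (m := 4) le_rfl hM.symm hs hσ Nat.prime_three
        (by decide) (orderOf_eq_prime ho hx1))
  · exact hasN_of_not_mem' h3 (plusQ_eq 4 F) hG hx ho

/-- **Automorphisms of order three of `PΩ₈⁺(F)` which are not inner.** -/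
theorem hasN_of [Finite F] (h3 : (3 : F) ≠ 0) {x : MulAut (POmega F (quadFormPlus 4 F))} (ho : x ^ 3 = 1)
    (hni : ∀ g, x ≠ MulAut.conj g) : HasN x := hasN_of' h3 ho hni

end POm

open Cfsg.Agent.ChevalleyStructure Cfsg.Agent.ChevalleyStructure.Elts
open Cfsg.Agent.ChevalleyStructure.GraphSymm (symmD4a)
open Cfsg.Agent.Nodes.RGDTwD4 Cfsg.Agent.Nodes.RGDChev
open Cfsg.Agent.CpAut.RgdTwD4 (hD4)
open Cfsg.Agent.BpExc.FamTw.Gr
open Cfsg.Agent.BpExc Cfsg.Agent.BpExc.FamField Cfsg.Agent.BpExc.FamUntw Cfsg.Agent.BpExc.FamInst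
open Cfsg.Agent.GpExc.Field
open Cfsg.Agent.H469.Exc (KK locFin)
open Cfsg.Agent.H350.Tri Cfsg.Agent.H12.BalTri

variable {r : ℕ} [hrf : Fact r.Prime]

theorem core (hr3 : r ≠ 3) {n : ℕ} (hn : 0 < n) {θ : MulAut (Y4 r)} {u : Y4 r} (hθ : θ = MulAut.conj u * gr4 r)
    (h3 : θ ^ 3 = 1) (hc : Commute θ (phi chevD4 (KK r) r n)) : ∃ p q : Y4 r, Nine p q ∧ (θ p = p ∧ θ q = q) ∧
      (phi chevD4 (KK r) r n p = p ∧ phi chevD4 (KK r) r n q = q) := by
  have hfin : Fintype (GaloisField r n) := Fintype.ofFinite _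
  have hF : Fintype.card (GaloisField r n) = r ^ n := by
    rw [← Nat.card_eq_fintype_card, GaloisField.card r n hn.ne']
  obtain ⟨f⟩ := Cfsg.Agent.BpExc.RowsUntw.exists_emb r (GaloisField r n)
  have hθa : ∀ a : ↥(chevD4.group (GaloisField r n)), θ (emb hD4 f a) = u * gr hD4 symmD4a (emb hD4 f a) * u⁻¹ := by
    intro a
    rw [hθ, MulAut.mul_apply, MulAut.conj_apply]
    rfl
  have hcc : ∀ y, θ (phi chevD4 (KK r) r n y) = phi chevD4 (KK r) r n (θ y) :=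
    fun y => congrArg (fun α : MulAut (Y4 r) => α y) hc.eq
  -- `u` is fixed
  have hu : phi chevD4 (KK r) r n u = u := by
    have h1 : u⁻¹ * phi chevD4 (KK r) r n u = 1 := by
      refine cent_emb (locFin r) r f fun a => ?_
      obtain ⟨b, rfl⟩ : ∃ b, a = gr hD4 symmD4a b := (gr hD4 symmD4a : MulAut _).surjective a |>.imp fun _ h => h.symm
      have h2 := hcc (emb hD4 f b)
      rw [phi_emb r hF f, hθa, map_mul, map_mul, map_inv, gr_emb, phi_emb r hF f] at h2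
      calc u⁻¹ * phi chevD4 (KK r) r n u * emb hD4 f (gr hD4 symmD4a b)
          = u⁻¹ * (phi chevD4 (KK r) r n u * emb hD4 f (gr hD4 symmD4a b) * (phi chevD4 (KK r) r n u)⁻¹) *
            phi chevD4 (KK r) r n u := by group
        _ = u⁻¹ * (u * emb hD4 f (gr hD4 symmD4a b) * u⁻¹) * phi chevD4 (KK r) r n u := by rw [← h2]
        _ = emb hD4 f (gr hD4 symmD4a b) * (u⁻¹ * phi chevD4 (KK r) r n u) := by group
    exact (inv_mul_eq_one.1 h1).symm
  obtain ⟨β, hβ⟩ := exists_beta (ι := emb hD4 f) (θ := θ) (emb_injective hD4 f) (fun a => by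
    rw [hθa, gr_emb]
    exact norm_emb r hF f hu _)
  have hβ3 : β ^ 3 = 1 := by
    have key : ∀ (m : ℕ) (a : ↥(chevD4.group (GaloisField r n))), emb hD4 f ((β ^ m) a) = (θ ^ m) (emb hD4 f a) := by
      intro m
      induction m with
      | zero => intro a; rfl
      | succ m ih => intro a; rw [pow_succ, pow_succ, MulAut.mul_apply, MulAut.mul_apply, ih, hβ]
    apply MulEquiv.ext
    intro a
    apply emb_injective hD4 f
    rw [key, h3]
    rfl
  have hni : ∀ g, β ≠ MulAut.conj g := by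
    rintro g rfl
    refine gr_ne r hF f (w := u⁻¹ * emb hD4 f g) (by rw [map_mul, map_inv, hu, phi_emb r hF f]) fun a => ?_
    have h1 := hβ a
    rw [hθa, MulAut.conj_apply, map_mul, map_mul, map_inv] at h1
    calc gr hD4 symmD4a (emb hD4 f a) = u⁻¹ * (u * gr hD4 symmD4a (emb hD4 f a) * u⁻¹) * u := by group
      _ = u⁻¹ * (emb hD4 f g * emb hD4 f a * (emb hD4 f g)⁻¹) * u := by rw [← h1]
      _ = u⁻¹ * emb hD4 f g * emb hD4 f a * (u⁻¹ * emb hD4 f g)⁻¹ := by group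
  have h30 : (3 : GaloisField r n) ≠ 0 := by
    intro h
    have h1 : ((3 : ℕ) : GaloisField r n) = 0 := by exact_mod_cast h
    rw [CharP.cast_eq_zero_iff (GaloisField r n) r] at h1
    exact hr3 ((Nat.prime_dvd_prime_iff_eq Fact.out Nat.prime_three).1 h1)
  obtain ⟨e⟩ := Cfsg.Agent.S1082.result (F := GaloisField r n)
  have hN : HasN β := by
    apply HasN.of_congr e
    refine hasN_of h30 (by rw [← map_pow, hβ3, map_one]) fun g hg => ?_
    apply hni (e.symm g)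
    apply (MulAut.congr e).injective
    rw [H521.RowD4.congr_conj, MulEquiv.apply_symm_apply, hg]
  obtain ⟨p, q, hn', hp, hq⟩ := hN
  refine ⟨emb hD4 f p, emb hD4 f q, hn'.map _ (emb_injective hD4 f), ⟨?_, ?_⟩, phi_emb r hF f p, phi_emb r hF f q⟩
  · rw [← hβ, hp]
  · rw [← hβ, hq]

theorem gr_phi (n : ℕ) : Commute (gr4 r) (phi chevD4 (KK r) r n) := gr_mul_fld hD4 symmD4a _

theorem gr_cube : gr4 r ^ 3 = 1 := Cfsg.Agent.BpExc.FamTw.Four.gr_cube_D4

theorem fixed_sub {α φ : MulAut (Y4 r)} {p q : Y4 r} (h : Nine p q) (h1 : α p = p ∧ α q = q) (h2 : φ p = p ∧ φ q = q) :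
    ∃ A : Subgroup (Y4 r), IsElementaryAbelian 3 A ∧ Nat.card ↥A = 9 ∧ ∀ y ∈ A, α y = y ∧ φ y = y := by
  let K : Subgroup (Y4 r) := (α.toMonoidHom.eqLocus (MonoidHom.id _)) ⊓ (φ.toMonoidHom.eqLocus (MonoidHom.id _))
  obtain ⟨A, hA, hA9, hAK⟩ := h.exists_le (K := K) ⟨h1.1, h2.1⟩ ⟨h1.2, h2.2⟩
  exact ⟨A, hA, hA9, fun y hy => hAK hy⟩

/-- **TRI-9a.** -/
theorem exists_nine' (hr3 : r ≠ 3) {n : ℕ} (hn : 0 < n) {θ : MulAut (Y4 r)}
    (hθ : ∃ u, θ = MulAut.conj u * gr4 r ∨ θ = MulAut.conj u * gr4 r ^ 2) (h3 : θ ^ 3 = 1)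
    (hc : Commute θ (phi chevD4 (KK r) r n)) :
    ∃ A : Subgroup (Y4 r), IsElementaryAbelian 3 A ∧ Nat.card ↥A = 9 ∧
      ∀ y ∈ A, θ y = y ∧ phi chevD4 (KK r) r n y = y := by
  obtain ⟨u, hu | hu⟩ := hθ
  · obtain ⟨p, q, h, h1, h2⟩ := core hr3 hn hu h3 hc
    exact fixed_sub h h1 h2
  · have h4 : θ⁻¹ = MulAut.conj (gr4 r u⁻¹) * gr4 r := by
      have h5 : (gr4 r ^ 2)⁻¹ = gr4 r := by
        rw [inv_eq_iff_mul_eq_one, ← pow_succ, gr_cube]
      have h6 : (MulAut.conj (gr4 r u⁻¹) : MulAut (Y4 r)) = gr4 r * MulAut.conj u⁻¹ * (gr4 r)⁻¹ :=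
        (H206.Balance.mul_conj_mul_inv (gr4 r) u⁻¹).symm
      rw [hu, mul_inv_rev, h5, h6, inv_mul_cancel_right, map_inv]
    obtain ⟨p, q, h, ⟨h1, h1'⟩, h2⟩ := core hr3 hn h4 (by rw [inv_pow, h3, inv_one]) hc.inv_left
    refine fixed_sub h ⟨?_, ?_⟩ h2
    · conv_lhs => rw [← h1]
      exact MulAut.apply_inv_self _ θ p
    · conv_lhs => rw [← h1']
      exact MulAut.apply_inv_self _ θ q

theorem exists_nine (_hr5 : 5 ≤ r) {n : ℕ} (hn : 0 < n) {θ : MulAut (Y4 r)}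
    (hθ : ∃ u, θ = MulAut.conj u * gr4 r ∨ θ = MulAut.conj u * gr4 r ^ 2) (h3 : θ ^ 3 = 1)
    (hc : Commute θ (phi chevD4 (KK r) r n)) :
    ∃ A : Subgroup (Y4 r), IsElementaryAbelian 3 A ∧ Nat.card ↥A = 9 ∧
      ∀ y ∈ A, θ y = y ∧ phi chevD4 (KK r) r n y = y :=
  exists_nine' (by omega) hn hθ h3 hc

theorem phi_eq_pow (n : ℕ) : phi chevD4 (KK r) r n = phi chevD4 (KK r) r 1 ^ n := by
  rw [FamUntw.phi_pow, one_mul]

/-- **TRI-9b.** -/
theorem exists_nine_std (hr3 : r ≠ 3) {n i : ℕ} :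
    ∃ A : Subgroup (Y4 r), IsElementaryAbelian 3 A ∧ Nat.card ↥A = 9 ∧
      ∀ y ∈ A, gr4 r y = y ∧ phi chevD4 (KK r) r n y = y := by
  obtain ⟨A, h1, h2, h3⟩ := exists_nine' hr3 one_pos (θ := gr4 r) ⟨1, Or.inl (by rw [map_one, one_mul])⟩ gr_cube
    (gr_phi 1)
  refine ⟨A, h1, h2, fun y hy => ⟨(h3 y hy).1, ?_⟩⟩
  rw [phi_eq_pow]
  have h4 : phi chevD4 (KK r) r 1 ∈ MulAction.stabilizer (MulAut (Y4 r)) y := (h3 y hy).2
  exact pow_mem h4 n

end Cfsg.Agent.H982.TriNine
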