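import Cfsg.Agent.H198.TriCls
import Cfsg.Agent.H161.TriLin
import Cfsg.Agent.H752.SemiNormal
import Cfsg.Agent.H208.PlusAsm
import Cfsg.Agent.H521.RowD4
import Cfsg.Agent.H982.TriNineGrp

/-!
# S2187, row TRI-9 (NINE): `PΩ₈⁺` (helper982)

* `kc` : conjugation by the octonion `cV` of order three, an octonion automorphism commuting with `tauB`;
* `exists_std` : the classes of `tauB`, `kc` generate an elementary abelian group of order 9 fixed by `rho`,
  `Psi (tauB F)`, `Psi (fG σ)`;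
* `hasN_of` : every automorphism `x` of `P8 F`, `x ^ 3 = 1`, which is not induced by a linear similarity, fixes an
  elementary abelian group of order 9.
-/

set_option autoImplicit false
set_option linter.unusedSimpArgs false

namespace Cfsg.Agent.H982.TriNine

open Module QuadraticMap Cfsg.Agent.LieClassical.OrthCore Cfsg.Agent.LieClassical.OrthTrans
  Cfsg.Agent.LieClassical.OrthSimple Cfsg.Agent.ClassicalGeometry.OrthAut1
  Cfsg.Agent.ClassicalGeometry.OrthSemi Cfsg.Agent.H198.Classes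
  Cfsg.Agent.LieClassical.QuadForms Cfsg.Agent.H198.ClassesPlus
  Cfsg.Agent.ClassicalGeometry.TrialityOct Cfsg.Agent.ClassicalGeometry.Triality
  Cfsg.Agent.ClassicalGeometry.TrialitySpaces Cfsg.Agent.H198.TriBase Cfsg.Agent.H198.TriAut
  Cfsg.Agent.H206.Balance Cfsg.Agent.H198.BalVar Cfsg.Agent.H198.TriDia Cfsg.Agent.H198.TriTC

universe u

variable {F : Type u} [Field F]

/-! ### The automorphism `kc` -/

/-- an octonion of order three -/
def cV (F : Type u) [Field F] : V8 F := Sum.elim ![1, 1, 1, 1] ![-2, 1, 1, 1]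

theorem cV_l0 : cV F (.inl 0) = 1 := rfl
theorem cV_l1 : cV F (.inl 1) = 1 := rfl
theorem cV_l2 : cV F (.inl 2) = 1 := rfl
theorem cV_l3 : cV F (.inl 3) = 1 := rfl
theorem cV_r0 : cV F (.inr 0) = -2 := rfl
theorem cV_r1 : cV F (.inr 1) = 1 := rfl
theorem cV_r2 : cV F (.inr 2) = 1 := rfl
theorem cV_r3 : cV F (.inr 3) = 1 := rfl

theorem norm_cV : plusForm 4 F (cV F) = 1 := by
  rw [norm8, cV_l0, cV_l1, cV_l2, cV_l3, cV_r0, cV_r1, cV_r2, cV_r3]
  norm_num

/-- `x ↦ c (x c̄)` -/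
def kcF (x : V8 F) : V8 F := omul (cV F) (omul x (oconj (cV F)))

/-- `x ↦ c̄ (x c)` -/
def kcI (x : V8 F) : V8 F := omul (oconj (cV F)) (omul x (cV F))

local macro "coordc" : tactic => `(tactic| (apply ext8 <;>
  simp only [omul_l0, omul_l1, omul_l2, omul_l3, omul_r0, omul_r1, omul_r2, omul_r3,
    oconj_l0, oconj_l1, oconj_l2, oconj_l3, oconj_r0, oconj_r1, oconj_r2, oconj_r3,
    cV_l0, cV_l1, cV_l2, cV_l3, cV_r0, cV_r1, cV_r2, cV_r3,
    Pi.add_apply, Pi.sub_apply, Pi.neg_apply, Pi.smul_apply, smul_eq_mul, norm8, polar8] <;>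
  ring))

theorem kcI_kcF (x : V8 F) : kcI (kcF x) = x := by
  unfold kcI kcF
  coordc

theorem kcF_kcI (x : V8 F) : kcF (kcI x) = x := by
  unfold kcI kcF
  coordc

set_option maxHeartbeats 4000000 in
theorem kcF_cube (x : V8 F) : kcF (kcF (kcF x)) = x := by
  unfold kcF
  coordc

set_option maxHeartbeats 4000000 in
theorem kcF_omul (x y : V8 F) : kcF (omul x y) = omul (kcF x) (kcF y) := by
  unfold kcF
  coordc

/-- conjugation by `c` -/
def kcP (F : Type u) [Field F] : Equiv.Perm (V8 F) where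
  toFun := kcF
  invFun := kcI
  left_inv := kcI_kcF
  right_inv := kcF_kcI

theorem isSS_kcP : IsSS (plusForm 4 F) (RingEquiv.refl F) 1 (kcP F) := by
  refine ⟨one_ne_zero, fun u v => ?_, fun c v => ?_, fun v => ?_⟩
  · change omul (cV F) (omul (u + v) _) = omul (cV F) (omul u _) + omul (cV F) (omul v _)
    rw [add_omul, omul_add]
  · change omul (cV F) (omul (c • v) _) = c • omul (cV F) (omul v _)
    rw [smul_omul, omul_smul]
  · change plusForm 4 F (omul (cV F) (omul v (oconj (cV F)))) = 1 * plusForm 4 F v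
    rw [norm_omul, norm_omul, norm_oconj, norm_cV, mul_one]

/-- conjugation by `c` -/
def kc (F : Type u) [Field F] : G8 F := ⟨kcP F, _, _, isSS_kcP⟩

theorem tri_kc : TriS (kc F) (kc F) (kc F) := fun x y => kcF_omul x y

theorem kc_pow_three : kc F ^ 3 = 1 := by
  apply Subtype.ext
  ext1 x
  exact kcF_cube x

theorem tauB_cV : (tauB F).1 (cV F) = cV F := by
  apply ext8 <;> rfl

theorem kc_tauB : kc F * tauB F = tauB F * kc F := by
  apply Subtype.ext
  ext1 x
  change omul (cV F) (omul ((tauB F).1 x) (oconj (cV F))) = (tauB F).1 (omul (cV F) (omul x (oconj (cV F))))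
  have h := tri_tauB (F := F)
  rw [h, h, aut_oconj h, tauB_cV]

theorem fG_cV (σ : F ≃+* F) : (fG σ).1 (cV F) = cV F := by
  apply ext8 <;> rw [fG_apply]
  · rw [cV_l0, map_one]
  · rw [cV_l1, map_one]
  · rw [cV_l2, map_one]
  · rw [cV_l3, map_one]
  · rw [cV_r0, map_neg, map_ofNat]
  · rw [cV_r1, map_one]
  · rw [cV_r2, map_one]
  · rw [cV_r3, map_one]

theorem kc_fG (σ : F ≃+* F) : kc F * fG σ = fG σ * kc F := by
  apply Subtype.ext
  ext1 x
  change omul (cV F) (omul ((fG σ).1 x) (oconj (cV F))) = (fG σ).1 (omul (cV F) (omul x (oconj (cV F))))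
  have h := tri_fG (F := F) σ
  rw [h, h, aut_oconj h, fG_cV]

theorem tauB_fG (σ : F ≃+* F) : tauB F * fG σ = fG σ * tauB F := by
  apply Subtype.ext
  ext1 x
  apply ext8 <;> rfl

/-- the idempotent `l₀` -/
def l0V (F : Type u) [Field F] : V8 F := Sum.elim ![1, 0, 0, 0] ![0, 0, 0, 0]

theorem tauB_l0V : (tauB F).1 (l0V F) = l0V F := by
  apply ext8 <;> rfl

theorem kc_l0V : (kc F).1 (l0V F) ≠ l0V F := by
  intro h
  have h0 : kcF (l0V F) = l0V F := h
  have h1 : kcF (l0V F) (.inl 1) = l0V F (.inl 1) := congrFun h0 _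
  simp only [kcF, omul_l0, omul_l1, omul_l2, omul_l3, omul_r0, omul_r1, omul_r2, omul_r3,
    oconj_l0, oconj_l1, oconj_l2, oconj_l3, oconj_r0, oconj_r1, oconj_r2, oconj_r3,
    cV_l0, cV_l1, cV_l2, cV_l3, cV_r0, cV_r1, cV_r2, cV_r3, l0V, Sum.elim_inl, Sum.elim_inr, Matrix.cons_val_zero,
    Matrix.cons_val_one, Matrix.cons_val] at h1
  ring_nf at h1
  exact one_ne_zero (neg_eq_zero.1 h1)

theorem kc_not_mem : kc F ∉ Subgroup.zpowers (tauB F) := by
  rintro ⟨i, hi⟩
  change tauB F ^ i = kc F at hi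
  apply kc_l0V (F := F)
  have key : ∀ i : ℤ, (tauB F ^ i).1 (l0V F) = l0V F := by
    intro i
    induction i using Int.induction_on with
    | zero => rfl
    | succ n ih =>
      rw [zpow_add_one]
      change (tauB F ^ (n : ℤ)).1 ((tauB F).1 (l0V F)) = _
      rw [tauB_l0V, ih]
    | pred n ih =>
      rw [zpow_sub_one]
      change (tauB F ^ (-(n : ℤ))).1 ((tauB F)⁻¹.1 (l0V F)) = _
      have h1 : (tauB F)⁻¹.1 (l0V F) = l0V F := by
        conv_lhs => rw [← tauB_l0V]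
        exact (tauB F).1.symm_apply_apply _
      rw [h1, ih]
  rw [← hi, key]

theorem tauB_ne_one : tauB F ≠ 1 := by
  intro h
  have h1 : (tauB F).1 (Sum.elim ![0, 1, 0, 0] ![0, 0, 0, 0]) = Sum.elim ![0, 1, 0, 0] ![0, 0, 0, 0] := by
    rw [h]
    rfl
  have h2 := congrFun h1 (.inl 1)
  exact zero_ne_one h2

/-! ### Passing to `P8` -/

/-- `Psi` is injective on octonion automorphisms. -/
theorem Psi_inj (hG : Good (plusForm 4 F)) {M N : G8 F} (hM : TriS M M M) (hN : TriS N N N)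
    (h : Psi (plusForm 4 F) M = Psi (plusForm 4 F) N) : M = N := by
  obtain ⟨c, hc⟩ := smul_of_Psi_eq hG h
  obtain ⟨σ, d, hs⟩ := N.2
  have h1 := hc (one8 F)
  rw [hs.smul, aut_one hM, aut_one hN] at h1
  have h5 : (c : F) = 1 := by
    apply σ.injective
    rw [map_one]
    have h6 : (σ (c : F) - 1) • one8 F = 0 := by
      rw [sub_smul, one_smul, sub_eq_zero]
      exact h1.symm
    rcases smul_eq_zero.1 h6 with h7 | h7
    · exact sub_eq_zero.1 h7
    · exfalso
      have h8 := norm_one8 (F := F)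
      rw [h7, QuadraticMap.map_zero] at h8
      exact zero_ne_one h8
  apply Subtype.ext
  ext1 v
  have := hc v
  rw [h5, one_smul] at this
  exact this

theorem tri_zpow {M : G8 F} (hM : TriS M M M) (i : ℤ) : TriS (M ^ i) (M ^ i) (M ^ i) := by
  induction i using Int.induction_on with
  | zero => exact TriS.one
  | succ n ih =>
    rw [zpow_add_one]
    exact ih.mul hM
  | pred n ih =>
    rw [zpow_sub_one]
    exact ih.mul hM.inv

theorem exists_pt [Finite F] (hG : Good (plusForm 4 F)) {M : G8 F} (hs : IsSS (plusForm 4 F) (RingEquiv.refl F) 1 M.1)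
    (h3 : M ^ 3 = 1) : ∃ p : P8 F, MulAut.conj p = Psi (plusForm 4 F) M := by
  obtain ⟨p, hp⟩ := H521.RowD4.Psi_pow_four hG hs
  refine ⟨p, hp.trans ?_⟩
  have h1 : Psi (plusForm 4 F) M ^ 3 = 1 := by
    rw [← map_pow (Psi (plusForm 4 F)) M 3, h3, map_one (Psi (plusForm 4 F))]
  rw [pow_succ, h1, one_mul]

theorem conj_inj [Finite F] (hG : Good (plusForm 4 F)) {p q : P8 F}
    (h : (MulAut.conj p : MulAut (P8 F)) = MulAut.conj q) : p = q := by
  have h1 : q⁻¹ * p ∈ Subgroup.center (P8 F) := by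
    rw [Subgroup.mem_center_iff]
    intro g
    have h2 := congrArg (fun α : MulAut (P8 F) => α g) h
    simp only [MulAut.conj_apply] at h2
    calc g * (q⁻¹ * p) = q⁻¹ * (q * g * q⁻¹) * p := by group
      _ = q⁻¹ * (p * g * p⁻¹) * p := by rw [h2]
      _ = q⁻¹ * p * g := by group
  rw [H208.FixGood.center_P hG, Subgroup.mem_bot, inv_mul_eq_one] at h1
  exact h1.symm

theorem fix_of_comm [Finite F] (hG : Good (plusForm 4 F)) {p : P8 F} {m y : MulAut (P8 F)} (hp : MulAut.conj p = m)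
    (h : y * m = m * y) : y p = p := by
  apply conj_inj hG
  have h1 : MulAut.conj (y p) = y * MulAut.conj p * y⁻¹ := (H206.Balance.mul_conj_mul_inv y p).symm
  rw [h1, hp, h, mul_inv_cancel_right]

theorem Psi_comm {M N : G8 F} (h : M * N = N * M) :
    Psi (plusForm 4 F) M * Psi (plusForm 4 F) N = Psi (plusForm 4 F) N * Psi (plusForm 4 F) M := by
  have h1 := congrArg (Psi (plusForm 4 F)) h
  rwa [map_mul (Psi (plusForm 4 F)) M N, map_mul (Psi (plusForm 4 F)) N M] at h1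

/-- **The standard group.** -/
theorem exists_std [Finite F] (hG : Good (plusForm 4 F)) : ∃ p q : P8 F, Nine p q ∧
    (rho hG p = p ∧ rho hG q = q) ∧ (Psi _ (tauB F) p = p ∧ Psi _ (tauB F) q = q) ∧
    ∀ σ : F ≃+* F, Psi _ (fG σ) p = p ∧ Psi _ (fG σ) q = q := by
  obtain ⟨p, hp⟩ := exists_pt hG (M := tauB F) isSS_tbP tauB_pow_three
  obtain ⟨q, hq⟩ := exists_pt hG (M := kc F) isSS_kcP kc_pow_three
  have h3 : ∀ {M : G8 F} {p : P8 F}, M ^ 3 = 1 → MulAut.conj p = Psi (plusForm 4 F) M → p ^ 3 = 1 := by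
    intro M p h h1
    apply conj_inj hG
    rw [map_pow, h1, ← map_pow (Psi (plusForm 4 F)) M 3, h, map_one (Psi (plusForm 4 F)), map_one]
  refine ⟨p, q, ⟨?_, h3 tauB_pow_three hp, h3 kc_pow_three hq, ?_, ?_⟩, ⟨?_, ?_⟩, ⟨?_, ?_⟩, fun σ => ⟨?_, ?_⟩⟩
  · apply conj_inj hG
    rw [map_mul, map_mul, hp, hq]
    exact (Psi_comm kc_tauB).symm
  · rintro rfl
    apply tauB_ne_one (F := F)
    apply Psi_inj hG tri_tauB TriS.one
    rw [← hp, map_one (Psi (plusForm 4 F)), map_one]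
  · rintro ⟨i, hi⟩
    change p ^ i = q at hi
    apply kc_not_mem (F := F)
    refine ⟨i, ?_⟩
    change tauB F ^ i = kc F
    apply Psi_inj hG (tri_zpow tri_tauB i) tri_kc
    rw [map_zpow (Psi (plusForm 4 F)) (tauB F) i, ← hp, ← hq, ← hi, map_zpow]
  · exact fix_of_comm hG hp (rho_comm hG tri_tauB)
  · exact fix_of_comm hG hq (rho_comm hG tri_kc)
  · exact fix_of_comm hG hp rfl
  · exact fix_of_comm hG hq (Psi_comm kc_tauB).symm
  · exact fix_of_comm hG hp (Psi_comm (tauB_fG σ)).symm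
  · exact fix_of_comm hG hq (Psi_comm (kc_fG σ)).symm

/-- the normal forms -/
theorem hasN_xt_one [Finite F] (hG : Good (plusForm 4 F)) : HasN (xt hG (1 : G8 F)) := by
  obtain ⟨p, q, h, ⟨h1, h2⟩, -, -⟩ := exists_std hG
  have key : ∀ p, xt hG (1 : G8 F) p = rho hG p := by
    intro p
    rw [xt, map_one (Psi (plusForm 4 F)), one_mul]
  exact ⟨p, q, h, by rw [key, h1], by rw [key, h2]⟩

theorem hasN_xt_tauB [Finite F] (hG : Good (plusForm 4 F)) : HasN (xt hG (tauB F)) := by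
  obtain ⟨p, q, h, ⟨h1, h2⟩, ⟨h3, h4⟩, -⟩ := exists_std hG
  refine ⟨p, q, h, ?_, ?_⟩
  · rw [xt, MulAut.mul_apply, h1, h3]
  · rw [xt, MulAut.mul_apply, h2, h4]

theorem hasN_xt_fG [Finite F] (hG : Good (plusForm 4 F)) (σ : F ≃+* F) : HasN (xt hG (fG σ)) := by
  obtain ⟨p, q, h, ⟨h1, h2⟩, -, h5⟩ := exists_std hG
  obtain ⟨h3, h4⟩ := h5 σ
  refine ⟨p, q, h, ?_, ?_⟩
  · rw [xt, MulAut.mul_apply, h1, h3]
  · rw [xt, MulAut.mul_apply, h2, h4]

theorem hasN_fG [Finite F] (hG : Good (plusForm 4 F)) (σ : F ≃+* F) : HasN (Psi (plusForm 4 F) (fG σ)) := by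
  obtain ⟨p, q, h, -, -, h5⟩ := exists_std hG
  exact ⟨p, q, h, h5 σ⟩

/-- All `xt hG τ`. -/
theorem hasN_xt [Finite F] (h3 : (3 : F) ≠ 0) (hG : Good (plusForm 4 F)) {τ : G8 F} (hτ : TriS τ τ τ)
    (ho : τ ^ 3 = 1) {v : V8 F} (hv0 : v ≠ 0) (hvv : omul v v = 0) (hv : τ.1 v = v) : HasN (xt hG τ) := by
  obtain ⟨σ, c, hs⟩ := τ.2
  obtain rfl := aut_mult hτ hs
  by_cases hσ1 : σ = RingEquiv.refl F
  · subst hσ1
    rcases H161.TriLin.lin_normal h3 hτ ⟨1, hs⟩ ho hv0 hvv hv with h | ⟨N, hN, h⟩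
    · rw [h]
      exact hasN_xt_one hG
    · apply HasN.of_conj (Psi (plusForm 4 F) N)
      rw [xt_conj hG τ hN, h]
      exact hasN_xt_tauB hG
  · obtain ⟨N, hN, h⟩ := H752.SemiNormal.semi_normal hτ hs hσ1 ho
    apply HasN.of_conj (Psi (plusForm 4 F) N)
    rw [xt_conj hG τ hN, h]
    exact hasN_xt_fG hG σ

/-- The elements outside the range of `Psi`. -/
theorem hasN_of_not_mem [Finite F] (h3 : (3 : F) ≠ 0) (hG : Good (plusForm 4 F)) {x : MulAut (P8 F)}
    (hx : x ∉ (Psi (plusForm 4 F)).range) (ho : x ^ 3 = 1) : HasN x := by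
  obtain ⟨α, τ, hτ, hτ3, h, v, hv0, hvv, hv⟩ := H198.TriCls.classify hG hx ho
  have hb := hasN_xt h3 hG hτ hτ3 hv0 hvv hv
  rcases h with h | h
  · rw [← h] at hb
    exact hb.of_conj
  · rw [← h] at hb
    exact hb.of_conj.inv

end Cfsg.Agent.H982.TriNine
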